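import Cfsg.Agent.GLTwoThree.Three
import Mathlib.GroupTheory.NoncommCoprod
import Mathlib.GroupTheory.IndexNormal

/-!
# The parabolic subgroup in order `5616`
-/

set_option autoImplicit false
set_option linter.unusedSectionVars false
set_option linter.style.haveILetI false

noncomputable section

namespace Cfsg.Agent.GLTwoThree

open Subgroup

universe u

variable {G : Type u} [Group G] [Finite G]

/-- Two commuting elements of prime order `p`, independent, generate a group of order `p²`. -/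
theorem pair_facts {p : ℕ} [hp : Fact p.Prime] {x y : G} (hx : orderOf x = p) (hy : orderOf y = p)
    (hc : Commute x y) (hyx : y ∉ zpowers x) :
    ∃ Q : Subgroup G, x ∈ Q ∧ y ∈ Q ∧ Nat.card Q = p * p ∧
      (∀ g ∈ Q, ∃ a b : ℕ, a < p ∧ b < p ∧ g = x ^ a * y ^ b) ∧
      (∀ g ∈ Q, ∀ h ∈ Q, g * h = h * g) ∧ (∀ g ∈ Q, g ^ p = 1) ∧
      ∀ S : Subgroup G, x ∈ S → y ∈ S → Q ≤ S := by
  have hcomm : ∀ (a : zpowers x) (b : zpowers y), Commute ((zpowers x).subtype a)
      ((zpowers y).subtype b) := by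
    rintro ⟨_, i, rfl⟩ ⟨_, j, rfl⟩
    exact hc.zpow_zpow i j
  set f := MonoidHom.noncommCoprod (zpowers x).subtype (zpowers y).subtype hcomm with hf
  have hinj : Function.Injective f := by
    rw [injective_iff_map_eq_one]
    rintro ⟨a, b⟩ hab
    have hab' : (a : G) * (b : G) = 1 := hab
    have hb : (b : G) ∈ zpowers x := by
      rw [← inv_eq_of_mul_eq_one_right hab']
      exact inv_mem a.2
    have hb1 : (b : G) = 1 := by
      by_contra hne
      refine hyx ?_
      have h1 : zpowers (b : G) = zpowers y := by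
        refine Subgroup.eq_of_le_of_card_ge (zpowers_le.2 b.2) ?_
        rw [Nat.card_zpowers, Nat.card_zpowers, hy]
        rcases (Nat.dvd_prime hp.out).1 (hy ▸ orderOf_dvd_of_mem_zpowers b.2) with h | h
        · exact absurd (orderOf_eq_one_iff.1 h) hne
        · exact h.ge
      exact zpowers_le.2 hb (h1.symm ▸ mem_zpowers y : y ∈ zpowers (b : G))
    rw [hb1, mul_one] at hab'
    exact Prod.ext (Subtype.ext hab') (Subtype.ext hb1)
  refine ⟨f.range, ⟨(⟨x, mem_zpowers x⟩, 1), mul_one x⟩, ⟨(1, ⟨y, mem_zpowers y⟩), one_mul y⟩,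
    ?_, ?_, ?_, ?_, ?_⟩
  · rw [← Nat.card_congr (MonoidHom.ofInjective hinj).toEquiv, Nat.card_prod, Nat.card_zpowers,
      Nat.card_zpowers, hx, hy]
  · rintro _ ⟨⟨⟨a, ha⟩, ⟨b, hb⟩⟩, rfl⟩
    rw [← mem_powers_iff_mem_zpowers] at ha hb
    obtain ⟨i, rfl⟩ := ha
    obtain ⟨j, rfl⟩ := hb
    refine ⟨i % p, j % p, Nat.mod_lt _ hp.out.pos, Nat.mod_lt _ hp.out.pos, ?_⟩
    rw [← hx, pow_mod_orderOf, hx, ← hy, pow_mod_orderOf]
    rfl
  · rintro _ ⟨⟨a, b⟩, rfl⟩ _ ⟨⟨c, d⟩, rfl⟩
    rw [← map_mul, ← map_mul]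
    congr 1
    obtain ⟨_, i, rfl⟩ := a
    obtain ⟨_, j, rfl⟩ := b
    obtain ⟨_, k, rfl⟩ := c
    obtain ⟨_, l, rfl⟩ := d
    exact Prod.ext (Subtype.ext ((Commute.refl x).zpow_zpow i k).eq)
      (Subtype.ext ((Commute.refl y).zpow_zpow j l).eq)
  · rintro _ ⟨⟨a, b⟩, rfl⟩
    rw [← map_pow]
    have ha : a ^ p = 1 := by
      rw [← hx, ← Nat.card_zpowers]; exact pow_card_eq_one'
    have hb : b ^ p = 1 := by
      rw [← hy, ← Nat.card_zpowers]; exact pow_card_eq_one'
    rw [show ((a, b) : zpowers x × zpowers y) ^ p = 1 from Prod.ext ha hb, map_one]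
  · rintro S hxS hyS _ ⟨⟨a, b⟩, rfl⟩
    exact mul_mem (zpowers_le.2 hxS a.2) (zpowers_le.2 hyS b.2)

/-- The conjugates of `x` under a subgroup. -/
theorem card_mul_ncard_conj (N : Subgroup G) (x : G) :
    Nat.card N = Nat.card ↥(N ⊓ centralizer ({x} : Set G)) *
      {a | ∃ g ∈ N, g * x * g⁻¹ = a}.ncard := by
  letI : MulAction N G :=
    MulAction.compHom G (ConjAct.toConjAct.toMonoidHom.comp N.subtype)
  have hsmul : ∀ (n : N) (z : G), n • z = (n : G) * z * (n : G)⁻¹ := fun n z => rfl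
  have horb : MulAction.orbit N x = {a | ∃ g ∈ N, g * x * g⁻¹ = a} := by
    ext a
    simp only [MulAction.mem_orbit_iff, Subtype.exists, hsmul, Set.mem_ofPred_eq]
    exact ⟨fun ⟨g, hg, h⟩ => ⟨g, hg, h⟩, fun ⟨g, hg, h⟩ => ⟨g, hg, h⟩⟩
  have hstab : MulAction.stabilizer N x = (N ⊓ centralizer ({x} : Set G)).subgroupOf N := by
    ext n
    rw [MulAction.mem_stabilizer_iff, hsmul, mem_subgroupOf, Subgroup.mem_inf,
      mem_centralizer_singleton_iff, mul_inv_eq_iff_eq_mul]
    exact ⟨fun h => ⟨n.2, h⟩, fun h => h.2⟩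
  rw [← horb, ← MulAction.index_stabilizer, hstab,
    ← Nat.card_congr (Subgroup.subgroupOfEquivOfLe (inf_le_left (a := N)
      (b := centralizer ({x} : Set G)))).toEquiv]
  exact (Subgroup.card_mul_index _).symm

theorem mem_normalizer_of_conj {S : Subgroup G} {g : G} (h : ∀ a ∈ S, g * a * g⁻¹ ∈ S) :
    g ∈ normalizer (S : Set G) :=
  mem_normalizer_fintype h

theorem nine_dvd_centralizer {R : Subgroup G} (hR : Nat.card R = 27) {x : G} (hxR : x ∈ R)
    (hx : orderOf x = 3) : 9 ∣ Nat.card (centralizer ({x} : Set G)) := by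
  haveI : Fact (Nat.Prime 3) := ⟨Nat.prime_three⟩
  have hRp : IsPGroup 3 R := IsPGroup.of_card (n := 3) hR
  set S := R ⊓ centralizer ({x} : Set G) with hS
  obtain ⟨j, hj⟩ := IsPGroup.iff_card.1 (hRp.to_le (inf_le_left : S ≤ R))
  by_cases hj2 : 2 ≤ j
  · exact ((pow_dvd_pow 3 hj2).trans hj.symm.dvd).trans (Subgroup.card_dvd_of_le inf_le_right)
  exfalso
  have hxS : zpowers x = S := by
    refine Subgroup.eq_of_le_of_card_ge (zpowers_le.2 ⟨hxR, mem_centralizer_singleton_iff.2 rfl⟩)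
      ?_
    rw [Nat.card_zpowers, hx, hj]
    exact Nat.pow_le_pow_right (by norm_num : 0 < 3) (show j ≤ 1 by omega)
  haveI : Nontrivial R := Finite.one_lt_card_iff_nontrivial.1 (by omega)
  haveI := hRp.center_nontrivial
  obtain ⟨z, hz, hzne⟩ := (Subgroup.nontrivial_iff_exists_ne_one _).1
    (inferInstance : Nontrivial (Subgroup.center R))
  have hzc : ∀ r ∈ R, r * (z : G) = (z : G) * r := fun r hr =>
    congrArg Subtype.val (Subgroup.mem_center_iff.1 hz ⟨r, hr⟩)
  have hzx : (z : G) ∈ zpowers x := hxS ▸ ⟨z.2, mem_centralizer_singleton_iff.2 (hzc x hxR).symm⟩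
  have hzz : zpowers (z : G) = zpowers x := by
    refine Subgroup.eq_of_le_of_card_ge (zpowers_le.2 hzx) ?_
    rw [Nat.card_zpowers, Nat.card_zpowers, hx]
    rcases (Nat.dvd_prime Nat.prime_three).1 (hx ▸ orderOf_dvd_of_mem_zpowers hzx) with h | h
    · exact absurd (Subtype.ext (orderOf_eq_one_iff.1 h)) hzne
    · exact h.ge
  obtain ⟨n, hn⟩ := Subgroup.mem_zpowers_iff.1 (hzz.symm ▸ mem_zpowers x : x ∈ zpowers (z : G))
  have hRS : R ≤ S := fun r hr => ⟨hr, mem_centralizer_singleton_iff.2 (by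
    rw [← hn]; exact ((show Commute r (z : G) from hzc r hr).zpow_right n).eq)⟩
  have h1 := Subgroup.card_dvd_of_le hRS
  rw [hR, hj] at h1
  interval_cases j <;> norm_num at h1

theorem commute_pow_four {r x : G} (h : Commute (r ^ 4) x) (hr : r ^ 27 = 1) : Commute r x := by
  have h1 := h.pow_left 7
  rwa [← pow_mul, show 4 * 7 = 27 + 1 from rfl, pow_succ, hr, one_mul] at h1

variable [IsSimpleGroup G] {t : G}
  (e : centralizer ({t} : Set G) ≃* H) (ht : orderOf t = 2) (hcard : Nat.card G = 5616)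

include hcard in
theorem sylow_three_card (P : Sylow 3 G) : Nat.card P = 27 := by
  haveI : Fact (Nat.Prime 3) := ⟨Nat.prime_three⟩
  obtain ⟨k, hk⟩ := IsPGroup.iff_card.1 P.2
  have h1 : 3 ^ k ∣ 5616 := hcard ▸ hk ▸ Subgroup.card_subgroup_dvd_card _
  have h2 : 3 ^ 3 ∣ 3 ^ k := hk ▸ P.pow_dvd_card_of_pow_dvd_card (by rw [hcard]; norm_num)
  have h3 := (Nat.pow_dvd_pow_iff_le_right (by norm_num)).1 h2
  rw [hk]
  rcases (show k = 3 ∨ 4 ≤ k by omega) with rfl | h4
  · norm_num
  · exact absurd ((pow_dvd_pow 3 h4).trans h1) (by norm_num)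

/-- The Sylow `3`-subgroup of a centralizer of order `2 · 3 ^ k`. -/
theorem exists_kernel (x : G) {k : ℕ}
    (hk : Nat.card (centralizer ({x} : Set G)) = 2 * 3 ^ k) :
    ∃ K : Subgroup G, K ≤ centralizer ({x} : Set G) ∧ Nat.card K = 3 ^ k ∧
      ∀ g ∈ centralizer ({x} : Set G), ∀ n, g ^ 3 ^ n = 1 → g ∈ K := by
  haveI : Fact (Nat.Prime 3) := ⟨Nat.prime_three⟩
  set C := centralizer ({x} : Set G) with hC
  let S : Sylow 3 C := default
  obtain ⟨j, hj⟩ := IsPGroup.iff_card.1 S.2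
  have hSc : Nat.card S = 3 ^ k := by
    have h1 : 3 ^ j ∣ 3 ^ k := by
      have h : 3 ^ j ∣ 2 * 3 ^ k := hk ▸ hj ▸ Subgroup.card_subgroup_dvd_card _
      exact (Nat.Coprime.pow_left j (by norm_num : Nat.Coprime 3 2)).dvd_of_dvd_mul_left h
    have h2 : 3 ^ k ∣ Nat.card S := S.pow_dvd_card_of_pow_dvd_card (hk ▸ dvd_mul_left _ _)
    exact Nat.dvd_antisymm (hj ▸ h1 :) h2
  have hind : (S : Subgroup C).index = 2 := by
    have h := (S : Subgroup C).card_mul_index
    rw [hSc, hk, mul_comm 2] at h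
    exact Nat.eq_of_mul_eq_mul_left (pow_pos (by norm_num) k) h
  refine ⟨(S : Subgroup C).map C.subtype, Subgroup.map_subtype_le _, ?_, fun g hg n hgn => ?_⟩
  · exact (Nat.card_congr
      (Subgroup.equivMapOfInjective _ C.subtype C.subtype_injective).toEquiv).symm.trans hSc
  · refine ⟨⟨g, hg⟩, ?_, rfl⟩
    obtain ⟨m, hm⟩ : Odd (3 ^ n) := Odd.pow (by decide)
    set a : C := ⟨g, hg⟩ with ha
    have h1 : a ^ (2 * m + 1) = 1 := Subtype.ext (by rw [← hm]; exact hgn)
    have h2 : a = ((a * a) ^ m)⁻¹ := by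
      refine eq_inv_of_mul_eq_one_left ?_
      rw [← pow_two, ← pow_mul, ← pow_succ', h1]
    show a ∈ (S : Subgroup C)
    rw [h2]
    exact inv_mem (pow_mem (mul_self_mem_of_index_two hind a) m)

theorem centralizer_singleton_inv (g : G) :
    centralizer ({g⁻¹} : Set G) = centralizer ({g} : Set G) := by
  ext a
  rw [mem_centralizer_singleton_iff, mem_centralizer_singleton_iff]
  exact Commute.inv_right_iff (a := a) (b := g)

theorem three_pow_cases {g y : G} (hy : orderOf y = 3) (hg : g ∈ zpowers y) :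
    g = 1 ∨ g = y ∨ g = y⁻¹ := by
  rw [← mem_powers_iff_mem_zpowers] at hg
  obtain ⟨n, rfl⟩ := hg
  have h3 : y ^ 3 = 1 := orderOf_dvd_iff_pow_eq_one.1 (dvd_of_eq hy)
  show y ^ n = 1 ∨ y ^ n = y ∨ y ^ n = y⁻¹
  rw [← pow_mod_orderOf y n, hy]
  have hlt : n % 3 < 3 := Nat.mod_lt _ (by norm_num)
  interval_cases (n % 3)
  · exact Or.inl (pow_zero y)
  · exact Or.inr (Or.inl (pow_one y))
  · refine Or.inr (Or.inr (eq_inv_of_mul_eq_one_left ?_))
    rw [← pow_succ, h3]

theorem ne_inv_of_order_three {y : G} (hy : orderOf y = 3) : y ≠ y⁻¹ := fun h => by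
  have h1 : orderOf y ∣ 2 := orderOf_dvd_iff_pow_eq_one.2 (by
    rw [pow_two]; nth_rw 2 [h]; rw [mul_inv_cancel])
  rw [hy] at h1
  norm_num at h1

theorem pow_two_eq_inv {y : G} (hy : orderOf y = 3) : y ^ 2 = y⁻¹ := by
  refine eq_inv_of_mul_eq_one_left ?_
  rw [← pow_succ]
  exact orderOf_dvd_iff_pow_eq_one.1 (dvd_of_eq hy)

/-- An involution inverting `xG` and commuting with `t`. -/
def IsInverter (v : G) : Prop := v = uG e ∨ v = t * uG e

include ht in
theorem inverter_facts {v : G} (hv : IsInverter e v) :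
    orderOf v = 2 ∧ Commute t v ∧ v * xG e * v⁻¹ = (xG e)⁻¹ := by
  rcases hv with rfl | rfl
  · exact ⟨orderOf_uG e, t_comm_uG e ht, uG_conj_xG e⟩
  · refine ⟨orderOf_tu e ht, (Commute.refl t).mul_right (t_comm_uG e ht), ?_⟩
    calc t * uG e * xG e * (t * uG e)⁻¹ = t * (uG e * xG e * (uG e)⁻¹) * t⁻¹ := by group
      _ = (t * xG e * t⁻¹)⁻¹ := by rw [uG_conj_xG e, conj_inv]
      _ = _ := by rw [t_comm_xG e ht, mul_inv_cancel_right]

section Kernel

variable {K : Subgroup G} {k : ℕ} (hKC : K ≤ centralizer ({xG e} : Set G))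
  (hKc : Nat.card K = 3 ^ k)
  (hKchar : ∀ g ∈ centralizer ({xG e} : Set G), ∀ n, g ^ 3 ^ n = 1 → g ∈ K)

include hKC hKc hKchar in
theorem normalizes_kernel {h : G}
    (hh : h * xG e * h⁻¹ = xG e ∨ h * xG e * h⁻¹ = (xG e)⁻¹) :
    h ∈ normalizer (K : Set G) := by
  refine mem_normalizer_of_conj fun a ha => hKchar _ ?_ k ?_
  · have hax : Commute a (xG e) := mem_centralizer_singleton_iff.1 (hKC ha)
    have h1 : Commute (h * a * h⁻¹) (h * xG e * h⁻¹) := (Commute.conj_iff h).2 hax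
    rcases hh with hh | hh <;> rw [hh] at h1
    · exact mem_centralizer_singleton_iff.2 h1.eq
    · exact mem_centralizer_singleton_iff.2 (Commute.inv_right_iff.1 h1).eq
  · have h1 : (⟨a, ha⟩ : K) ^ 3 ^ k = 1 := by rw [← hKc]; exact pow_card_eq_one'
    rw [conj_pow, show a ^ 3 ^ k = 1 from congrArg Subtype.val h1, mul_one, mul_inv_cancel]

include hKchar in
theorem xG_mem_kernel : xG e ∈ K :=
  hKchar _ (mem_centralizer_singleton_iff.2 rfl) 1
    (orderOf_dvd_iff_pow_eq_one.1 (dvd_of_eq (orderOf_xG e)))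

include ht hKC hKc hKchar in
theorem inverter_mem_normalizer {v : G} (hv : IsInverter e v) : v ∈ normalizer (K : Set G) :=
  normalizes_kernel e hKC hKc hKchar (Or.inr (inverter_facts e ht hv).2.2)

include ht hKC hKc hKchar in
theorem t_mem_normalizer_kernel : t ∈ normalizer (K : Set G) :=
  normalizes_kernel e hKC hKc hKchar (Or.inl (by rw [t_comm_xG e ht, mul_inv_cancel_right]))

include e ht hKc in
theorem centralized_cyclic {v : G} (hv : orderOf v = 2) {y : G} (hy : y ∈ K) (hy1 : y ≠ 1)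
    (hvy : Commute y v) :
    orderOf y = 3 ∧ ∀ g ∈ K, Commute g v → g ∈ zpowers y := by
  haveI : Fact (Nat.Prime 3) := ⟨Nat.prime_three⟩
  set S := K ⊓ centralizer ({v} : Set G) with hS
  have hKp : IsPGroup 3 K := IsPGroup.of_card hKc
  have hS3 : Nat.card S ≤ 3 := card_three_le e ht hv inf_le_right (hKp.to_le inf_le_left)
  have hyS : zpowers y ≤ S := zpowers_le.2 ⟨hy, mem_centralizer_singleton_iff.2 hvy.eq⟩
  have hoy : orderOf y = 3 := by
    obtain ⟨j, hj⟩ := IsPGroup.iff_card.1 ((hKp.to_le inf_le_left).to_le hyS)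
    rw [Nat.card_zpowers] at hj
    have h1 := (Nat.le_of_dvd Nat.card_pos (Subgroup.card_dvd_of_le hyS)).trans hS3
    rw [Nat.card_zpowers, hj] at h1
    rcases j with _ | _ | j
    · exact absurd (orderOf_eq_one_iff.1 (hj.trans (pow_zero 3))) hy1
    · exact hj.trans (pow_one 3)
    · exfalso
      have : 3 ^ 2 ≤ 3 ^ (j + 1 + 1) := Nat.pow_le_pow_right (by norm_num) (by omega)
      omega
  have heq : zpowers y = S :=
    Subgroup.eq_of_le_of_card_ge hyS (by rw [Nat.card_zpowers, hoy]; exact hS3)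
  exact ⟨hoy, fun g hg hgv => heq ▸ ⟨hg, mem_centralizer_singleton_iff.2 hgv.eq⟩⟩

include ht hKC hKc hKchar in
/-- A fixed point of an inverter in the kernel. -/
theorem fixed_facts {v : G} (hv : IsInverter e v) {y : G} (hy : y ∈ K) (hy1 : y ≠ 1)
    (hvy : Commute y v) :
    orderOf y = 3 ∧ y ∉ zpowers (xG e) ∧ t * y * t⁻¹ = y⁻¹ ∧ IsConj (xG e) y := by
  obtain ⟨hv2, htv, hvx⟩ := inverter_facts e ht hv
  obtain ⟨hoy, hS⟩ := centralized_cyclic e ht hKc hv2 hy hy1 hvy
  have hxK := xG_mem_kernel e hKchar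
  have hnx : y ∉ zpowers (xG e) := by
    intro h
    have hx' : xG e ∈ zpowers y := by
      rcases three_pow_cases (orderOf_xG e) h with h | h | h
      · exact absurd h hy1
      · rw [h]; exact mem_zpowers _
      · rw [h]; exact Subgroup.mem_zpowers_iff.2 ⟨-1, by group⟩
    obtain ⟨n, hn⟩ := Subgroup.mem_zpowers_iff.1 hx'
    have hc : Commute v (xG e) := hn ▸ (hvy.symm.zpow_right n)
    refine ne_inv_of_order_three (orderOf_xG e) ?_
    rw [hc.eq, mul_inv_cancel_right] at hvx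
    exact hvx
  refine ⟨hoy, hnx, ?_, isConj_xG e ht hv2 hoy hvy.eq⟩
  have hmem : t * y * t⁻¹ ∈ zpowers y :=
    hS _ ((Subgroup.mem_normalizer_iff.1 (t_mem_normalizer_kernel e ht hKC hKc hKchar) y).1 hy)
      ((htv.mul_left hvy).mul_left htv.inv_left)
  rcases three_pow_cases hoy hmem with h | h | h
  · rw [mul_inv_eq_one, mul_eq_left] at h
    exact absurd h hy1
  · exfalso
    have hty : Commute y t := (mul_inv_eq_iff_eq_mul.1 h).symm
    have hx2 := centralized_cyclic e ht hKc ht hxK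
      (fun h => by have := orderOf_xG e; rw [h, orderOf_one] at this; omega)
      (t_comm_xG e ht).symm
    exact hnx (hx2.2 y hy hty)
  · exact h

include ht hKC hKc hKchar in
theorem generation (L : Subgroup G) (hxL : xG e ∈ L)
    (hL : ∀ v, IsInverter e v → ∀ g ∈ K, Commute g v → g ∈ L) : K ≤ L := by
  haveI : Fact (Nat.Prime 2) := ⟨Nat.prime_two⟩
  have hxK := xG_mem_kernel e hKchar
  have htu : Commute t (uG e) := t_comm_uG e ht
  have hA : IsPGroup 2 ↥(zpowers t ⊔ zpowers (uG e)) := by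
    refine IsPGroup.to_sup_of_normal_right' ?_ ?_ ?_
    · exact IsPGroup.of_card (n := 1) (by rw [Nat.card_zpowers, ht]; rfl)
    · exact IsPGroup.of_card (n := 1) (by rw [Nat.card_zpowers, orderOf_uG]; rfl)
    · refine zpowers_le.2 (mem_normalizer_of_conj fun a ha => ?_)
      obtain ⟨n, rfl⟩ := Subgroup.mem_zpowers_iff.1 ha
      rw [(htu.zpow_right n).eq, mul_inv_cancel_right]
      exact ha
  refine Signalizer.le_of_forall_two (p := 2) hA (mem_sup_left (mem_zpowers t))
    (mem_sup_right (mem_zpowers _)) ?_ ?_ htu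
    (sup_le (zpowers_le.2 (t_mem_normalizer_kernel e ht hKC hKc hKchar))
      (zpowers_le.2 (inverter_mem_normalizer e ht hKC hKc hKchar (Or.inl rfl))))
    ?_ (fun i g hg => ?_) (fun g hg => ?_)
  · rw [← ht, pow_orderOf_eq_one]
  · rw [← orderOf_uG e, pow_orderOf_eq_one]
  · rw [hKc]
    exact fun h => absurd (Nat.prime_two.dvd_of_dvd_pow h) (by norm_num)
  · have hgc : Commute g (t ^ i * uG e) := mem_centralizer_singleton_iff.1 hg.2
    have ht2 : t ^ 2 = 1 := by rw [← ht, pow_orderOf_eq_one]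
    rw [← pow_mod_orderOf, ht] at hgc
    rcases Nat.mod_two_eq_zero_or_one i with h | h <;> rw [h] at hgc
    · rw [pow_zero, one_mul] at hgc
      exact hL _ (Or.inl rfl) g hg.1 hgc
    · rw [pow_one] at hgc
      exact hL _ (Or.inr rfl) g hg.1 hgc
  · have hx2 := centralized_cyclic e ht hKc ht hxK
      (fun h => by have := orderOf_xG e; rw [h, orderOf_one] at this; omega)
      (t_comm_xG e ht).symm
    exact zpowers_le.2 hxL (hx2.2 g hg.1 (mem_centralizer_singleton_iff.1 hg.2))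

include ht hKC hKc hKchar in
theorem exists_fixed (L : Subgroup G) (hxL : xG e ∈ L) (hlt : Nat.card L < 3 ^ k) :
    ∃ v, IsInverter e v ∧ ∃ y ∈ K, y ∉ L ∧ Commute y v := by
  by_contra hno
  have h := generation e ht hKC hKc hKchar L hxL fun v hv g hg hgv => by
    by_contra hgL
    exact hno ⟨v, hv, g, hg, hgL, hgv⟩
  have := Nat.le_of_dvd Nat.card_pos (Subgroup.card_dvd_of_le h)
  omega

include ht hcard hKC hKc hKchar in
/-- The exponent `k` is not `2`. -/
theorem k_ne_two (hC : Nat.card (centralizer ({xG e} : Set G)) = 2 * 3 ^ k) : k ≠ 2 := by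
  intro hk2
  rw [hk2] at hKc hC
  haveI : Fact (Nat.Prime 3) := ⟨Nat.prime_three⟩
  set x := xG e with hxdef
  have hxK : x ∈ K := xG_mem_kernel e hKchar
  have hxo : orderOf x = 3 := orderOf_xG e
  obtain ⟨v, hv, y, hyK, hyx, hyv⟩ := exists_fixed e ht hKC hKc hKchar (zpowers x)
    (mem_zpowers x) (by rw [Nat.card_zpowers, hxo]; norm_num)
  have hy1 : y ≠ 1 := fun h => hyx (h ▸ one_mem _)
  obtain ⟨hyo, -, hty, hyconj⟩ := fixed_facts e ht hKC hKc hKchar hv hyK hy1 hyv
  have hxy : Commute x y := (mem_centralizer_singleton_iff.1 (hKC hyK)).symm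
  obtain ⟨Q, -, -, hQc, hQrep, -, -, hQmin⟩ := pair_facts hxo hyo hxy hyx
  have hQK : Q = K := Subgroup.eq_of_le_of_card_ge (hQmin K hxK hyK) (by rw [hKc, hQc]; norm_num)
  obtain ⟨R, hR⟩ := (IsPGroup.of_card hKc).exists_le_sylow (p := 3)
  have hRc : Nat.card R = 27 := sylow_three_card hcard R
  haveI hnorm : (K.subgroupOf (R : Subgroup G)).Normal := by
    refine Subgroup.normal_of_index_eq_minFac_card ?_
    have h := (K.subgroupOf (R : Subgroup G)).card_mul_index
    rw [Nat.card_congr (Subgroup.subgroupOfEquivOfLe hR).toEquiv, hKc] at h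
    refine Eq.trans ?_ (congrArg Nat.minFac hRc.symm)
    rw [show Nat.minFac 27 = 3 by norm_num]
    rw [hRc] at h
    omega
  have hconjK : ∀ r ∈ (R : Subgroup G), ∀ g ∈ K, r * g * r⁻¹ ∈ K := fun r hr g hg =>
    hnorm.conj_mem ⟨g, hR hg⟩ hg ⟨r, hr⟩
  haveI : Nontrivial R := Finite.one_lt_card_iff_nontrivial.1 (by omega)
  haveI := R.2.center_nontrivial
  obtain ⟨z, hz, hzne⟩ := (Subgroup.nontrivial_iff_exists_ne_one _).1
    (inferInstance : Nontrivial (Subgroup.center R))
  have hzc : ∀ r ∈ (R : Subgroup G), r * (z : G) = (z : G) * r := fun r hr =>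
    congrArg Subtype.val (Subgroup.mem_center_iff.1 hz ⟨r, hr⟩)
  have hz27 : 27 ∣ Nat.card (centralizer ({(z : G)} : Set G)) :=
    hRc ▸ Subgroup.card_dvd_of_le fun r hr => mem_centralizer_singleton_iff.2 (hzc r hr)
  have hz1 : (z : G) ≠ 1 := fun h => hzne (Subtype.ext h)
  have hzK : (z : G) ∈ K := by
    refine hKchar _ (mem_centralizer_singleton_iff.2 (hzc x (hR hxK)).symm) 3 ?_
    have h1 : z ^ 27 = 1 := by rw [← hRc]; exact pow_card_eq_one'
    exact congrArg Subtype.val h1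
  set n : G → ℕ := fun g => Nat.card (centralizer ({g} : Set G)) with hn
  have hinv : ∀ g, n g⁻¹ = n g := fun g => by rw [hn]; simp only [centralizer_singleton_inv]
  have hconj : ∀ g r, n (r * g * r⁻¹) = n g := fun g r =>
    card_centralizer_of_isConj (isConj_iff.2 ⟨r, rfl⟩)
  have hnx : n x = 18 := hC
  have hny : n y = 18 := (card_centralizer_of_isConj hyconj).trans hC
  have htx : t * x * t⁻¹ = x := by rw [hxdef, t_comm_xG e ht, mul_inv_cancel_right]
  -- the four mixed elements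
  have h22 : x⁻¹ * y⁻¹ = (x * y)⁻¹ := by rw [hxy.eq, mul_inv_rev]
  have h12 : x * y⁻¹ = t * (x * y) * t⁻¹ := by rw [← conj_mul, htx, hty]
  have h21 : x⁻¹ * y = (x * y⁻¹)⁻¹ := by rw [hxy.inv_right.eq, mul_inv_rev, inv_inv]
  have hclass : ∀ g ∈ K, g = 1 ∨ (g = x ∨ g = x⁻¹ ∨ g = y ∨ g = y⁻¹) ∨ n g = n (x * y) := by
    intro g hg
    obtain ⟨a, b, ha, hb, rfl⟩ := hQrep g (hQK ▸ hg)
    interval_cases a <;> interval_cases b <;>
      simp only [pow_zero, pow_one, pow_two_eq_inv hxo, pow_two_eq_inv hyo, one_mul, mul_one,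
        true_or, or_true]
    · exact Or.inr (Or.inr (by rw [h12, hconj]))
    · exact Or.inr (Or.inr (by rw [h21, hinv, h12, hconj]))
    · exact Or.inr (Or.inr (by rw [h22, hinv]))
  have hnxy : n (x * y) = n z := by
    rcases hclass _ hzK with h | h | h
    · exact absurd h hz1
    · have h18 : n z = 18 := by
        rcases h with h | h | h | h <;> rw [h]
        · exact hnx
        · rw [hinv, hnx]
        · exact hny
        · rw [hinv, hny]
      exact absurd hz27 (by show ¬ 27 ∣ n z; rw [h18]; norm_num)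
    · exact h.symm
  have hS4 : ∀ g ∈ K, n g = 18 → g = x ∨ g = x⁻¹ ∨ g = y ∨ g = y⁻¹ := by
    intro g hg hg18
    rcases hclass g hg with rfl | h | h
    · exfalso
      have h1 : n (1 : G) = 5616 := by
        rw [hn, ← hcard]
        exact (congrArg (fun S : Subgroup G => Nat.card S) (top_le_iff.1 fun a _ =>
          mem_centralizer_singleton_iff.2 ((Commute.one_right a).eq))).trans Subgroup.card_top
      omega
    · exact h
    · exfalso
      have : 27 ∣ n g := by rw [h, hnxy]; exact hz27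
      rw [hg18] at this
      norm_num at this
  have hfix : ∀ r ∈ (R : Subgroup G), r * x = x * r := by
    intro r hr
    set f : G → G := fun g => r * g * r⁻¹ with hf
    have hfinv : ∀ g, f g⁻¹ = (f g)⁻¹ := fun g => conj_inv.symm
    have hfinj : Function.Injective f := fun a b h => mul_left_cancel (mul_right_cancel h)
    have hfx := hS4 (f x) (hconjK r hr x hxK) ((hconj x r).trans hnx)
    have hfy := hS4 (f y) (hconjK r hr y hyK) ((hconj y r).trans hny)
    have hne : ∀ a, (a = x ∨ a = x⁻¹) → (a = y ∨ a = y⁻¹) → False := by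
      rintro a (rfl | rfl) (h | h)
      · exact hyx (h ▸ mem_zpowers x)
      · exact hyx (by rw [← inv_inv y, ← h]; exact inv_mem (mem_zpowers x))
      · exact hyx (h ▸ inv_mem (mem_zpowers x))
      · exact hyx (by rw [← inv_inv y, ← h, inv_inv]; exact mem_zpowers x)
    have h2 : f (f x) = x ∨ f (f x) = x⁻¹ := by
      rcases hfx with h | h | h | h
      · exact Or.inl (by rw [h, h])
      · exact Or.inl (by rw [h, hfinv, h, inv_inv])
      · rw [h]
        rcases hfy with h' | h' | h' | h'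
        · exact Or.inl h'
        · exact Or.inr h'
        · exact absurd (hfinj (h.trans h'.symm)) fun hxy' => hne x (Or.inl rfl) (Or.inl hxy')
        · exact absurd (hfinj (a₁ := x⁻¹) (a₂ := y) (by rw [hfinv, h, h'])) fun hxy' =>
            hne x⁻¹ (Or.inr rfl) (Or.inl hxy')
      · rw [h, hfinv]
        rcases hfy with h' | h' | h' | h'
        · exact Or.inr (by rw [h'])
        · exact Or.inl (by rw [h', inv_inv])
        · exact absurd (hfinj (a₁ := x⁻¹) (a₂ := y) (by rw [hfinv, h, h', inv_inv])) fun hxy' =>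
            hne x⁻¹ (Or.inr rfl) (Or.inl hxy')
        · exact absurd (hfinj (h.trans h'.symm)) fun hxy' => hne x (Or.inl rfl) (Or.inl hxy')
    have h4 : f (f (f (f x))) = x := by
      rcases h2 with h | h
      · rw [h, h]
      · rw [h, hfinv, hfinv, h, inv_inv]
    have h4' : Commute (r ^ 4) x := by
      show r ^ 4 * x = x * r ^ 4
      calc r ^ 4 * x = f (f (f (f x))) * r ^ 4 := by simp only [hf, pow_succ, pow_zero]; group
        _ = x * r ^ 4 := by rw [h4]
    have hr27 : (⟨r, hr⟩ : (R : Subgroup G)) ^ 27 = 1 := by rw [← hRc]; exact pow_card_eq_one'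
    exact (commute_pow_four h4' (congrArg Subtype.val hr27)).eq
  have h27 : 27 ∣ n x :=
    hRc ▸ Subgroup.card_dvd_of_le fun r hr => mem_centralizer_singleton_iff.2 (hfix r hr)
  rw [hnx] at h27
  norm_num at h27

end Kernel

omit [Finite G] [IsSimpleGroup G] in
theorem conj_flip {t v y : G} (htv : Commute t v) (hy : t * y * t⁻¹ = y⁻¹)
    (hyv : (t * v) * y * (t * v)⁻¹ = y) : v * y * v⁻¹ = y⁻¹ := by
  calc v * y * v⁻¹ = t⁻¹ * ((t * v) * y * (t * v)⁻¹) * t := by group
    _ = t⁻¹ * y * t := by rw [hyv]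
    _ = t⁻¹ * (t * y * t⁻¹)⁻¹ * t := by rw [hy, inv_inv]
    _ = y⁻¹ := by group

include ht hcard in
/-- The centralizer of `xG` has order `54`. -/
theorem card_centralizer_xG_eq : Nat.card (centralizer ({xG e} : Set G)) = 54 := by
  haveI : Fact (Nat.Prime 3) := ⟨Nat.prime_three⟩
  obtain ⟨k, hk3, hk⟩ := card_centralizer_xG e ht hcard
  obtain ⟨K, hKC, hKc, hKchar⟩ := exists_kernel (xG e) hk
  obtain ⟨R, hR⟩ := (IsPGroup.of_card (show Nat.card (zpowers (xG e)) = 3 ^ 1 by
    rw [Nat.card_zpowers, orderOf_xG e]; rfl)).exists_le_sylow (p := 3)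
  have h9 : 9 ∣ 2 * 3 ^ k :=
    hk ▸ nine_dvd_centralizer (sylow_three_card hcard R) (hR (mem_zpowers _)) (orderOf_xG e)
  have hk2 : k ≠ 2 := k_ne_two e ht hcard hKC hKc hKchar hk
  interval_cases k
  · norm_num at h9
  · norm_num at h9
  · exact absurd rfl hk2
  · rw [hk]; norm_num

variable {K : Subgroup G} (hKC : K ≤ centralizer ({xG e} : Set G)) (hKc : Nat.card K = 3 ^ 3)
  (hKchar : ∀ g ∈ centralizer ({xG e} : Set G), ∀ n, g ^ 3 ^ n = 1 → g ∈ K)
  (hC : Nat.card (centralizer ({xG e} : Set G)) = 54)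

include ht hcard hKC hKc hKchar hC in
theorem kernel_not_comm : ¬ ∀ a ∈ K, ∀ b ∈ K, a * b = b * a := by
  intro hab
  haveI : Fact (Nat.Prime 3) := ⟨Nat.prime_three⟩
  set x := xG e with hxdef
  have hxK : x ∈ K := xG_mem_kernel e hKchar
  have hxo : orderOf x = 3 := orderOf_xG e
  have hx1 : x ≠ 1 := fun h => by rw [h, orderOf_one] at hxo; omega
  -- both inverters have fixed points
  have hex : ∀ v, IsInverter e v → ∃ y ∈ K, y ≠ 1 ∧ Commute y v := by
    intro v hv
    by_contra hno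
    obtain ⟨w, hw, y, hyK, hyx, hyw⟩ := exists_fixed e ht hKC hKc hKchar (zpowers x)
      (mem_zpowers x) (by rw [Nat.card_zpowers, hxo]; norm_num)
    have hy1 : y ≠ 1 := fun h => hyx (h ▸ one_mem _)
    obtain ⟨hyo, -, -, -⟩ := fixed_facts e ht hKC hKc hKchar hw hyK hy1 hyw
    obtain ⟨Q, hxQ, hyQ, hQc, -, -, -, -⟩ := pair_facts hxo hyo (hab x hxK y hyK) hyx
    have hle : K ≤ Q := by
      refine generation e ht hKC hKc hKchar Q hxQ fun v' hv' g hg hgv => ?_
      rcases eq_or_ne g 1 with rfl | hg1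
      · exact one_mem Q
      rcases eq_or_ne v' w with rfl | hne
      · exact zpowers_le.2 hyQ ((centralized_cyclic e ht hKc (inverter_facts e ht hv').1 hyK hy1
          hyw).2 g hg hgv)
      · rcases eq_or_ne v v' with rfl | hne'
        · exact absurd ⟨g, hg, hg1, hgv⟩ hno
        · exfalso
          rcases hv with rfl | rfl <;> rcases hv' with rfl | rfl <;> rcases hw with rfl | rfl
          all_goals first
            | exact hne rfl
            | exact hne' rfl
            | exact hno ⟨y, hyK, hy1, hyw⟩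
    have := Nat.le_of_dvd Nat.card_pos (Subgroup.card_dvd_of_le hle)
    rw [hKc, hQc] at this
    norm_num at this
  obtain ⟨y₁, h1K, h11, h1u⟩ := hex (uG e) (Or.inl rfl)
  obtain ⟨y₂, h2K, h21, h2v⟩ := hex (t * uG e) (Or.inr rfl)
  obtain ⟨h1o, h1x, h1t, h1conj⟩ := fixed_facts e ht hKC hKc hKchar (Or.inl rfl) h1K h11 h1u
  obtain ⟨h2o, h2x, h2t, h2conj⟩ := fixed_facts e ht hKC hKc hKchar (Or.inr rfl) h2K h21 h2v
  have htu : Commute t (uG e) := t_comm_uG e ht
  have htt : t * t = 1 := t_mul_self ht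
  have huu : uG e * uG e = 1 := by
    rw [← pow_two]; exact orderOf_dvd_iff_pow_eq_one.1 (dvd_of_eq (orderOf_uG e))
  have h2u : uG e * y₂ * (uG e)⁻¹ = y₂⁻¹ :=
    conj_flip htu h2t (by rw [← h2v.eq, mul_inv_cancel_right])
  have h1u' : uG e * y₁ * (uG e)⁻¹ = y₁ := by rw [← h1u.eq, mul_inv_cancel_right]
  have h12 : y₂ ∉ zpowers y₁ := by
    intro h
    obtain ⟨n, hn⟩ := Subgroup.mem_zpowers_iff.1 h
    have h2u' : Commute y₂ (uG e) := hn ▸ h1u.zpow_left n
    rw [← h2u'.eq, mul_inv_cancel_right] at h2u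
    exact ne_inv_of_order_three h2o h2u
  obtain ⟨P, hP⟩ := (IsPGroup.of_card hKc).exists_le_sylow (p := 3)
  have hPK : K = (P : Subgroup G) :=
    Subgroup.eq_of_le_of_card_ge hP (by rw [sylow_three_card hcard P, hKc]; norm_num)
  haveI : IsMulCommutative (P : Subgroup G) :=
    ⟨⟨fun a b => Subtype.ext (hab a (hPK ▸ a.2) b (hPK ▸ b.2))⟩⟩
  set N := normalizer (K : Set G) with hN
  set O := {a | ∃ g ∈ N, g * x * g⁻¹ = a} with hO
  have hCN : centralizer ({x} : Set G) ≤ N := fun g hg =>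
    normalizes_kernel e hKC hKc hKchar (Or.inl (by
      rw [mem_centralizer_singleton_iff.1 hg, mul_inv_cancel_right]))
  have hNcard : Nat.card N = 54 * O.ncard := by
    rw [card_mul_ncard_conj N x, inf_eq_right.2 hCN, hC]
  have htN : t ∈ N := t_mem_normalizer_kernel e ht hKC hKc hKchar
  have huN : uG e ∈ N := inverter_mem_normalizer e ht hKC hKc hKchar (Or.inl rfl)
  have hclosed : ∀ g ∈ N, ∀ a ∈ O, g * a * g⁻¹ ∈ O := by
    rintro g hg a ⟨h, hh, rfl⟩
    exact ⟨g * h, mul_mem hg hh, by group⟩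
  have hburn : ∀ y ∈ K, IsConj x y → y ∈ O := by
    intro y hy hxy
    obtain ⟨c, hc⟩ := isConj_iff.1 hxy
    obtain ⟨m, hm, hm'⟩ := P.conj_eq_normalizer_conj_of_mem x c⁻¹
      (show x ∈ (P : Subgroup G) from hPK ▸ hxK)
      (show c⁻¹⁻¹ * x * c⁻¹ ∈ (P : Subgroup G) from by rw [inv_inv, hc]; exact hPK ▸ hy)
    rw [inv_inv, hc] at hm'
    refine ⟨m⁻¹, inv_mem (hN ▸ hPK ▸ hm), ?_⟩
    rw [inv_inv, hm']
  have hxO : x ∈ O := ⟨1, one_mem _, by group⟩
  have hy1O := hburn y₁ h1K h1conj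
  have hy2O := hburn y₂ h2K h2conj
  have htx : t * x * t⁻¹ = x := by rw [hxdef, t_comm_xG e ht, mul_inv_cancel_right]
  have hux : uG e * x * (uG e)⁻¹ = x⁻¹ := uG_conj_xG e
  have hxiO : x⁻¹ ∈ O := hux ▸ hclosed _ huN x hxO
  have hy1iO : y₁⁻¹ ∈ O := h1t ▸ hclosed _ htN y₁ hy1O
  have hy2iO : y₂⁻¹ ∈ O := h2t ▸ hclosed _ htN y₂ hy2O
  classical
  set S6 : Finset G := {x, x⁻¹, y₁, y₁⁻¹, y₂, y₂⁻¹} with hS6
  have hS6O : (S6 : Set G) ⊆ O := by
    intro a ha
    simp only [hS6, Finset.coe_insert, Finset.coe_singleton, Set.mem_insert_iff,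
      Set.mem_singleton_iff] at ha
    rcases ha with rfl | rfl | rfl | rfl | rfl | rfl <;> assumption
  have hnx : ∀ y, y ∉ zpowers x → y ≠ x ∧ y ≠ x⁻¹ ∧ y⁻¹ ≠ x ∧ y⁻¹ ≠ x⁻¹ := fun y hy =>
    ⟨fun h => hy (h ▸ mem_zpowers x), fun h => hy (h ▸ inv_mem (mem_zpowers x)),
      fun h => hy (by rw [← inv_inv y, h]; exact inv_mem (mem_zpowers x)),
      fun h => hy (by rw [inv_injective h]; exact mem_zpowers x)⟩
  have hS6c : S6.card = 6 := by
    obtain ⟨a1, a2, a3, a4⟩ := hnx y₁ h1x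
    obtain ⟨b1, b2, b3, b4⟩ := hnx y₂ h2x
    have c1 : y₁ ≠ y₂ := fun h => h12 (h ▸ mem_zpowers _)
    have c2 : y₁⁻¹ ≠ y₂ := fun h => h12 (h ▸ inv_mem (mem_zpowers _))
    have c3 : y₁ ≠ y₂⁻¹ := fun h => h12 (by rw [← inv_inv y₂, ← h]; exact inv_mem (mem_zpowers _))
    have c4 : y₁⁻¹ ≠ y₂⁻¹ := fun h => c1 (inv_injective h)
    rw [hS6, Finset.card_insert_of_notMem (by
        simp only [Finset.mem_insert, Finset.mem_singleton, not_or]
        exact ⟨ne_inv_of_order_three hxo, a1.symm, a3.symm, b1.symm, b3.symm⟩),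
      Finset.card_insert_of_notMem (by
        simp only [Finset.mem_insert, Finset.mem_singleton, not_or]
        exact ⟨a2.symm, a4.symm, b2.symm, b4.symm⟩),
      Finset.card_insert_of_notMem (by
        simp only [Finset.mem_insert, Finset.mem_singleton, not_or]
        exact ⟨ne_inv_of_order_three h1o, c1, c3⟩),
      Finset.card_insert_of_notMem (by
        simp only [Finset.mem_insert, Finset.mem_singleton, not_or]
        exact ⟨c2, c4⟩),
      Finset.card_insert_of_notMem (by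
        simp only [Finset.mem_singleton]
        exact ne_inv_of_order_three h2o),
      Finset.card_singleton]
  have hge : 6 ≤ O.ncard := by
    rw [← hS6c, ← Set.ncard_coe_finset]
    exact Set.ncard_le_ncard hS6O (Set.toFinite _)
  have hOK : O ⊆ (K : Set G) \ {1} := by
    rintro a ⟨g, hg, rfl⟩
    exact ⟨(Subgroup.mem_normalizer_iff.1 hg x).1 hxK, fun h => hx1 (conj_eq_one_iff.1 h)⟩
  have hle : O.ncard ≤ 26 := by
    refine (Set.ncard_le_ncard hOK (Set.toFinite _)).trans ?_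
    rw [Set.ncard_sdiff_singleton_of_mem (one_mem K), ← Nat.card_coe_set_eq]
    show Nat.card K - 1 ≤ 26
    rw [hKc]; norm_num
  have hdvd : O.ncard ∣ 104 := by
    refine (Nat.mul_dvd_mul_iff_left (by norm_num : 0 < 54)).1 ?_
    rw [← hNcard, show 54 * 104 = 5616 from rfl, ← hcard]
    exact Subgroup.card_subgroup_dvd_card N
  have h4 : 4 ∣ Nat.card N := by
    haveI : Fact (Nat.Prime 2) := ⟨Nat.prime_two⟩
    obtain ⟨V, -, -, hV, -, -, -, hVmin⟩ := pair_facts ht (orderOf_uG e) htu (fun h => by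
      obtain ⟨n, hn⟩ := Subgroup.mem_zpowers_iff.1 h
      have h1 : Commute (uG e) x := hn ▸ (show Commute t x from t_comm_xG e ht).zpow_left n
      rw [h1.eq, mul_inv_cancel_right] at hux
      exact ne_inv_of_order_three hxo hux)
    exact (show 4 ∣ Nat.card V by rw [hV]).trans (Subgroup.card_dvd_of_le (hVmin N htN huN))
  rcases (show O.ncard = 8 ∨ O.ncard = 13 ∨ O.ncard = 26 by
      have key : ∀ d ∈ Nat.divisors 104, 6 ≤ d → d ≤ 26 → d = 8 ∨ d = 13 ∨ d = 26 := by decide +kernel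
      exact key _ (Nat.mem_divisors.2 ⟨hdvd, by norm_num⟩) hge hle) with h8 | h13 | h26
  · -- two further points, one fixed by an involution
    have hrest : (O \ (S6 : Set G)).ncard = 2 := by
      rw [Set.ncard_sdiff hS6O (Set.toFinite _), h8, Set.ncard_coe_finset, hS6c]
    obtain ⟨w, hw⟩ := (Set.ncard_pos (Set.toFinite _)).1 (show 0 < (O \ (S6 : Set G)).ncard by omega)
    have hinv : ∀ g, (g = t ∨ g = uG e) → ∀ a ∈ O \ (S6 : Set G), g * a * g⁻¹ ∈ O \ (S6 : Set G) := by
      intro g hg a ha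
      have hgN : g ∈ N := by rcases hg with rfl | rfl <;> assumption
      refine ⟨hclosed g hgN a ha.1, fun hin => ha.2 ?_⟩
      have hgg : g * g = 1 := by rcases hg with rfl | rfl <;> assumption
      have hS : ∀ b ∈ (S6 : Set G), g * b * g⁻¹ ∈ (S6 : Set G) := by
        intro b hb
        simp only [hS6, Finset.coe_insert, Finset.coe_singleton, Set.mem_insert_iff,
          Set.mem_singleton_iff] at hb ⊢
        rcases hg with rfl | rfl <;> rcases hb with rfl | rfl | rfl | rfl | rfl | rfl <;>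
          simp only [← conj_inv, htx, h1t, h2t, hux, h1u', h2u, inv_inv, true_or, or_true]
      have := hS _ hin
      rwa [show g * (g * a * g⁻¹) * g⁻¹ = (g * g) * a * (g * g)⁻¹ by group, hgg, one_mul, inv_one,
        mul_one] at this
    have hwK : w ∈ K := (hOK hw.1).1
    have hw1 : w ≠ 1 := (hOK hw.1).2
    have hfix : ∀ v y, IsInverter e v → y ∈ K → y ≠ 1 → Commute y v → y ∈ (S6 : Set G) →
        y⁻¹ ∈ (S6 : Set G) → orderOf y = 3 → ¬ Commute w v := by
      intro v y hv hyK hy1 hyv hy hyi hyo hwv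
      rcases three_pow_cases hyo
        ((centralized_cyclic e ht hKc (inverter_facts e ht hv).1 hyK hy1 hyv).2 w hwK hwv) with
        h | h | h
      · exact hw1 h
      · exact hw.2 (h ▸ hy)
      · exact hw.2 (h ▸ hyi)
    have hwt : ¬ Commute w t := by
      intro hwt
      rcases three_pow_cases hxo
        ((centralized_cyclic e ht hKc ht hxK hx1 (t_comm_xG e ht).symm).2 w hwK hwt) with h | h | h
      · exact hw1 h
      · exact hw.2 (by simp [hS6, h])
      · exact hw.2 (by simp [hS6, h])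
    have hta := hinv t (Or.inl rfl) w hw
    have hub := hinv (uG e) (Or.inr rfl) w hw
    by_cases heq : t * w * t⁻¹ = uG e * w * (uG e)⁻¹
    · refine hfix (t * uG e) y₂ (Or.inr rfl) h2K h21 h2v (by simp [hS6]) (by simp [hS6]) h2o ?_
      show w * (t * uG e) = (t * uG e) * w
      have h1 : w = t⁻¹ * (uG e * w * (uG e)⁻¹) * t := by rw [← heq]; group
      have ht' : t⁻¹ = t := inv_eq_of_mul_eq_one_right htt
      calc w * (t * uG e) = t⁻¹ * (uG e * w * (uG e)⁻¹) * (t * t) * uG e := by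
            conv_lhs => rw [h1]
            group
        _ = t * uG e * w := by rw [htt, ht']; group
    · have h3 : ({w, t * w * t⁻¹, uG e * w * (uG e)⁻¹} : Finset G).card = 3 := by
        rw [Finset.card_insert_of_notMem (by
          simp only [Finset.mem_insert, Finset.mem_singleton, not_or]
          refine ⟨fun h => hwt (mul_inv_eq_iff_eq_mul.1 h.symm).symm, fun h => ?_⟩
          exact hfix (uG e) y₁ (Or.inl rfl) h1K h11 h1u (by simp [hS6]) (by simp [hS6]) h1o
            (mul_inv_eq_iff_eq_mul.1 h.symm).symm),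
          Finset.card_insert_of_notMem (by simpa using heq), Finset.card_singleton]
      have hsub : (({w, t * w * t⁻¹, uG e * w * (uG e)⁻¹} : Finset G) : Set G) ⊆ O \ (S6 : Set G) := by
        intro a ha
        simp only [Finset.coe_insert, Finset.coe_singleton, Set.mem_insert_iff,
          Set.mem_singleton_iff] at ha
        rcases ha with rfl | rfl | rfl <;> assumption
      have := Set.ncard_le_ncard hsub (Set.toFinite _)
      rw [Set.ncard_coe_finset, h3, hrest] at this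
      omega
  · rw [hNcard, h13] at h4
    norm_num at h4
  · have hi := N.card_mul_index
    rw [hNcard, h26, hcard] at hi
    have h24 := Invol.card_dvd_factorial_index (H := N) (fun h => by
      rw [h, Subgroup.index_top] at hi; omega)
    rw [hcard, show N.index = 4 by omega] at h24
    norm_num [Nat.factorial] at h24

include ht hcard hKC hKc hKchar hC in
theorem exists_parabolic_aux : ∃ Q : Subgroup G, Nat.card Q = 9 ∧ (∀ g ∈ Q, g ^ 3 = 1) ∧
    (∀ g ∈ Q, ∀ h ∈ Q, g * h = h * g) ∧ centralizer (Q : Set G) ≤ Q ∧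
    Nat.card (normalizer (Q : Set G)) = 432 ∧
    ∀ a ∈ Q, ∀ b ∈ Q, a ≠ 1 → b ≠ 1 → ∃ g ∈ normalizer (Q : Set G), g * a * g⁻¹ = b := by
  haveI : Fact (Nat.Prime 3) := ⟨Nat.prime_three⟩
  set x := xG e with hxdef
  have hxK : x ∈ K := xG_mem_kernel e hKchar
  have hxo : orderOf x = 3 := orderOf_xG e
  obtain ⟨v, hv, y, hyK, hyx, hyv⟩ := exists_fixed e ht hKC hKc hKchar (zpowers x)
    (mem_zpowers x) (by rw [Nat.card_zpowers, hxo]; norm_num)
  have hy1 : y ≠ 1 := fun h => hyx (h ▸ one_mem _)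
  obtain ⟨hyo, -, hty, hyconj⟩ := fixed_facts e ht hKC hKc hKchar hv hyK hy1 hyv
  obtain ⟨hv2, htv, hvx⟩ := inverter_facts e ht hv
  have hxy : Commute x y := (mem_centralizer_singleton_iff.1 (hKC hyK)).symm
  obtain ⟨Q, hxQ, hyQ, hQc, -, hQcomm, hQexp, hQmin⟩ := pair_facts hxo hyo hxy hyx
  have hQ9 : Nat.card Q = 9 := hQc
  have hQK : Q ≤ K := hQmin K hxK hyK
  -- `y` is not central in `K`
  have hync : ¬ K ≤ centralizer ({y} : Set G) := by
    intro hK
    refine kernel_not_comm e ht hcard hKC hKc hKchar hC fun a ha b hb => ?_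
    let Z := Subgroup.center K
    have hQZ : Q.subgroupOf K ≤ Z := by
      intro q hq
      refine Subgroup.mem_center_iff.2 fun r => Subtype.ext ?_
      have hle : Q ≤ centralizer ({(r : G)} : Set G) :=
        hQmin _ (mem_centralizer_singleton_iff.2 (mem_centralizer_singleton_iff.1 (hKC r.2)).symm)
          (mem_centralizer_singleton_iff.2 (mem_centralizer_singleton_iff.1 (hK r.2)).symm)
      exact (mem_centralizer_singleton_iff.1 (hle hq)).symm
    have h9 : 9 ∣ Nat.card Z := by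
      have := Subgroup.card_dvd_of_le hQZ
      rwa [Nat.card_congr (Subgroup.subgroupOfEquivOfLe hQK).toEquiv, hQ9] at this
    have hquot : Nat.card (K ⧸ Z) = 1 ∨ Nat.card (K ⧸ Z) = 3 := by
      refine (Nat.dvd_prime Nat.prime_three).1 ?_
      have h := Z.card_eq_card_quotient_mul_card_subgroup
      rw [hKc] at h
      obtain ⟨m, hm⟩ := h9
      rw [hm] at h
      refine ⟨m, ?_⟩
      have : Nat.card (K ⧸ Z) * (9 * m) = 9 * (Nat.card (K ⧸ Z) * m) := by ring
      rw [this] at h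
      norm_num at h
      omega
    haveI : IsCyclic (K ⧸ Z) := by
      rcases hquot with h | h
      · haveI := (Nat.card_eq_one_iff_unique.1 h).1
        infer_instance
      · exact isCyclic_of_prime_card (p := 3) h
    exact congrArg Subtype.val (commutative_of_cyclic_center_quotient (QuotientGroup.mk' Z)
      (by rw [QuotientGroup.ker_mk']) ⟨a, ha⟩ ⟨b, hb⟩)
  set M := normalizer (Q : Set G) with hM
  -- the two Sylow subgroups inside `M`
  have hCy : Nat.card (centralizer ({y} : Set G)) = 2 * 3 ^ 3 := by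
    rw [card_centralizer_of_isConj hyconj, hC]; norm_num
  obtain ⟨K', hK'C, hK'c, hK'char⟩ := exists_kernel y hCy
  have hK'Q : Q ≤ K' := hQmin K'
    (hK'char x (mem_centralizer_singleton_iff.2 hxy.eq) 1
      (orderOf_dvd_iff_pow_eq_one.1 (dvd_of_eq hxo)))
    (hK'char y (mem_centralizer_singleton_iff.2 rfl) 1
      (orderOf_dvd_iff_pow_eq_one.1 (dvd_of_eq hyo)))
  have hnorm : ∀ L : Subgroup G, Q ≤ L → Nat.card L = 27 → L ≤ M := by
    intro L hQL hL g hg
    haveI hn : (Q.subgroupOf L).Normal := by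
      refine Subgroup.normal_of_index_eq_minFac_card ?_
      have h := (Q.subgroupOf L).card_mul_index
      rw [Nat.card_congr (Subgroup.subgroupOfEquivOfLe hQL).toEquiv, hQ9, hL] at h
      rw [hL, show Nat.minFac 27 = 3 by norm_num]
      omega
    exact mem_normalizer_of_conj fun q hq => hn.conj_mem ⟨q, hQL hq⟩ hq ⟨g, hg⟩
  have hKM : K ≤ M := hnorm K hQK (by rw [hKc]; norm_num)
  have hK'M : K' ≤ M := hnorm K' hK'Q (by rw [hK'c]; norm_num)
  have hmap : ∀ g : G, g * x * g⁻¹ ∈ Q → g * y * g⁻¹ ∈ Q → g ∈ M := fun g h1 h2 =>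
    mem_normalizer_of_conj fun q hq =>
      hQmin (Q.comap (MulAut.conj g).toMonoidHom) h1 h2 hq
  have htM : t ∈ M := hmap t (by rw [t_comm_xG e ht, mul_inv_cancel_right]; exact hxQ)
    (by rw [hty]; exact inv_mem hyQ)
  have hvM : v ∈ M := hmap v (by rw [hvx]; exact inv_mem hxQ)
    (by rw [← hyv.eq, mul_inv_cancel_right]; exact hyQ)
  have hCM : centralizer ({x} : Set G) ≤ M := by
    set C := centralizer ({x} : Set G) with hCdef
    have hd27 : 27 ∣ Nat.card ↥(M ⊓ C) := by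
      have := Subgroup.card_dvd_of_le (le_inf hKM hKC : K ≤ M ⊓ C)
      rwa [hKc] at this
    have hd2 : 2 ∣ Nat.card ↥(M ⊓ C) := by
      rw [← ht, ← Subgroup.orderOf_mk t (show t ∈ M ⊓ C from
        ⟨htM, mem_centralizer_singleton_iff.2 (t_comm_xG e ht)⟩)]
      exact orderOf_dvd_natCard _
    have h54 : 54 ∣ Nat.card ↥(M ⊓ C) :=
      Nat.Coprime.mul_dvd_of_dvd_of_dvd (by norm_num : Nat.Coprime 2 27) hd2 hd27
    exact (Subgroup.eq_of_le_of_card_ge (inf_le_right : M ⊓ C ≤ C)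
      (by rw [hC]; exact Nat.le_of_dvd Nat.card_pos h54)).ge.trans inf_le_left
  -- the centralizer
  have hCQ : centralizer (Q : Set G) ≤ Q := by
    set D := centralizer (Q : Set G) with hD
    have hQD : Q ≤ D := fun q hq => mem_centralizer_iff.2 fun r hr => hQcomm r hr q hq
    have hDC : D ≤ centralizer ({x} : Set G) := Subgroup.centralizer_le (by simpa using hxQ)
    have h1 : Nat.card D ∣ 54 := hC ▸ Subgroup.card_dvd_of_le hDC
    have h2 : 9 ∣ Nat.card D := hQ9 ▸ Subgroup.card_dvd_of_le hQD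
    have hodd : ¬ 2 ∣ Nat.card D := by
      intro h
      haveI : Fact (Nat.Prime 2) := ⟨Nat.prime_two⟩
      obtain ⟨w, hw⟩ := exists_prime_orderOf_dvd_card' 2 h
      rw [← Subgroup.orderOf_coe] at hw
      have := card_three_le e ht hw (S := Q) (fun q hq => mem_centralizer_singleton_iff.2
        (mem_centralizer_iff.1 w.2 q hq)) (IsPGroup.of_card (n := 2) hQ9)
      omega
    have h27 : Nat.card D ≠ 27 := by
      intro h
      refine hync ?_
      have hDK : D ≤ K := fun d hd => hKchar d (hDC hd) 3 (by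
        have h3 : (⟨d, hd⟩ : D) ^ 27 = 1 := by rw [← h]; exact pow_card_eq_one'
        exact congrArg Subtype.val h3)
      rw [← Subgroup.eq_of_le_of_card_ge hDK (by rw [hKc, h]; norm_num)]
      exact Subgroup.centralizer_le (by simpa using hyQ)
    refine (Subgroup.eq_of_le_of_card_ge hQD ?_).ge
    have key : ∀ d ∈ Nat.divisors 54, 9 ∣ d → ¬ 2 ∣ d → d ≠ 27 → d = 9 := by decide +kernel
    rw [hQ9, key _ (Nat.mem_divisors.2 ⟨h1, by norm_num⟩) h2 hodd h27]
  -- the order of `M`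
  set O := {a | ∃ g ∈ M, g * x * g⁻¹ = a} with hO
  have hMcard : Nat.card M = 54 * O.ncard := by
    rw [card_mul_ncard_conj M x, inf_eq_right.2 hCM, hC]
  have hOQ : O ⊆ (Q : Set G) \ {1} := by
    rintro a ⟨g, hg, rfl⟩
    exact ⟨(Subgroup.mem_normalizer_iff.1 hg x).1 hxQ, fun h => by
      rw [conj_eq_one_iff.1 h, orderOf_one] at hxo; omega⟩
  have h8 : ((Q : Set G) \ {1}).ncard = 8 := by
    rw [Set.ncard_sdiff_singleton_of_mem (one_mem Q), ← Nat.card_coe_set_eq]
    show Nat.card Q - 1 = 8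
    rw [hQ9]
  have hOle : O.ncard ≤ 8 := (Set.ncard_le_ncard hOQ (Set.toFinite _)).trans h8.le
  have hMge : 432 ≤ Nat.card M := by
    obtain ⟨P, hP⟩ := (IsPGroup.of_card (show Nat.card (K.subgroupOf M) = 3 ^ 3 by
      rw [Nat.card_congr (Subgroup.subgroupOfEquivOfLe hKM).toEquiv, hKc])).exists_le_sylow
      (p := 3)
    obtain ⟨P', hP'⟩ := (IsPGroup.of_card (show Nat.card (K'.subgroupOf M) = 3 ^ 3 by
      rw [Nat.card_congr (Subgroup.subgroupOfEquivOfLe hK'M).toEquiv, hK'c])).exists_le_sylow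
      (p := 3)
    have hPc : ∀ S : Sylow 3 M, Nat.card S ≤ 27 := by
      intro S
      obtain ⟨j, hj⟩ := IsPGroup.iff_card.1 S.2
      have h1 : 3 ^ j ∣ 5616 :=
        hcard ▸ hj ▸ (Subgroup.card_subgroup_dvd_card _).trans (Subgroup.card_subgroup_dvd_card M)
      rw [hj]
      rcases (show j ≤ 3 ∨ 4 ≤ j by omega) with h | h
      · exact (Nat.pow_le_pow_right (by norm_num) h).trans (by norm_num)
      · exact absurd ((pow_dvd_pow 3 h).trans h1) (by norm_num)
    have hPK : K.subgroupOf M = (P : Subgroup M) := Subgroup.eq_of_le_of_card_ge hP (by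
      rw [Nat.card_congr (Subgroup.subgroupOfEquivOfLe hKM).toEquiv, hKc]; exact hPc P)
    have hne : P ≠ P' := by
      intro h
      refine hync fun a ha => ?_
      have : (⟨a, hKM ha⟩ : M) ∈ K'.subgroupOf M := by
        rw [Subgroup.eq_of_le_of_card_ge hP' (by
          rw [Nat.card_congr (Subgroup.subgroupOfEquivOfLe hK'M).toEquiv, hK'c]; exact hPc P'),
          ← h, ← hPK]
        exact ha
      exact hK'C this
    haveI : Nontrivial (Sylow 3 M) := ⟨⟨P, P', hne⟩⟩
    have hn : 4 ≤ Nat.card (Sylow 3 M) := by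
      have h1 : Nat.card (Sylow 3 M) % 3 = 1 := card_sylow_modEq_one 3 M
      have h2 : 1 < Nat.card (Sylow 3 M) := Finite.one_lt_card
      omega
    set NP := normalizer ((P : Subgroup M) : Set M) with hNP
    have hin : ∀ g : M, (g : G) ∈ normalizer (K : Set G) → g ∈ NP := by
      intro g hg
      refine mem_normalizer_of_conj fun a ha => ?_
      rw [← hPK, mem_subgroupOf] at ha ⊢
      exact (Subgroup.mem_normalizer_iff.1 hg _).1 ha
    have hd27 : 27 ∣ Nat.card NP := by
      refine dvd_trans ?_ (Subgroup.card_dvd_of_le (le_normalizer : (P : Subgroup M) ≤ NP))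
      rw [← hPK, Nat.card_congr (Subgroup.subgroupOfEquivOfLe hKM).toEquiv, hKc]
      norm_num
    have hd4 : 4 ∣ Nat.card NP := by
      haveI : Fact (Nat.Prime 2) := ⟨Nat.prime_two⟩
      obtain ⟨V, -, -, hV, -, -, -, hVmin⟩ := pair_facts (x := (⟨t, htM⟩ : M)) (y := ⟨v, hvM⟩)
        (p := 2) ((Subgroup.orderOf_mk _ _).trans ht) ((Subgroup.orderOf_mk _ _).trans hv2)
        (Subtype.ext htv.eq) (fun h => by
          obtain ⟨n, hn⟩ := Subgroup.mem_zpowers_iff.1 h
          have h1 : Commute v x := (show t ^ n = v from congrArg Subtype.val hn) ▸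
            (show Commute t x from t_comm_xG e ht).zpow_left n
          rw [h1.eq, mul_inv_cancel_right] at hvx
          exact ne_inv_of_order_three hxo hvx)
      refine (show 4 ∣ Nat.card V by rw [hV]).trans (Subgroup.card_dvd_of_le
        (hVmin NP (hin _ ?_) (hin _ ?_)))
      · exact t_mem_normalizer_kernel e ht hKC hKc hKchar
      · exact inverter_mem_normalizer e ht hKC hKc hKchar hv
    have hNP108 : 108 ≤ Nat.card NP := Nat.le_of_dvd Nat.card_pos
      (Nat.Coprime.mul_dvd_of_dvd_of_dvd (by norm_num : Nat.Coprime 4 27) hd4 hd27)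
    have hprod : Nat.card (Sylow 3 M) * Nat.card NP = Nat.card M := by
      rw [P.card_eq_index_normalizer]
      exact Subgroup.index_mul_card _
    calc 432 = 4 * 108 := rfl
      _ ≤ _ := Nat.mul_le_mul hn hNP108
      _ = _ := hprod
  have hMeq : Nat.card M = 432 := by omega
  have hOeq : O = (Q : Set G) \ {1} :=
    Set.eq_of_subset_of_ncard_le hOQ (by rw [h8]; omega) (Set.toFinite _)
  refine ⟨Q, hQ9, hQexp, hQcomm, hCQ, hMeq, fun a ha b hb ha1 hb1 => ?_⟩
  have h1 : a ∈ O := hOeq ▸ ⟨ha, ha1⟩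
  have h2 : b ∈ O := hOeq ▸ ⟨hb, hb1⟩
  obtain ⟨g, hg, rfl⟩ := h1
  obtain ⟨h, hh, rfl⟩ := h2
  exact ⟨h * g⁻¹, mul_mem hh (inv_mem hg), by group⟩

include e ht hcard in
/-- The parabolic subgroup `3² : GL (2, 3)`. -/
theorem exists_parabolic : ∃ Q : Subgroup G, Nat.card Q = 9 ∧ (∀ g ∈ Q, g ^ 3 = 1) ∧
    (∀ g ∈ Q, ∀ h ∈ Q, g * h = h * g) ∧ centralizer (Q : Set G) ≤ Q ∧
    Nat.card (normalizer (Q : Set G)) = 432 ∧
    ∀ a ∈ Q, ∀ b ∈ Q, a ≠ 1 → b ≠ 1 → ∃ g ∈ normalizer (Q : Set G), g * a * g⁻¹ = b := by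
  have hC := card_centralizer_xG_eq e ht hcard
  obtain ⟨K, hKC, hKc, hKchar⟩ := exists_kernel (xG e) (k := 3) (hC.trans (by norm_num))
  exact exists_parabolic_aux e ht hcard hKC hKc hKchar hC

end Cfsg.Agent.GLTwoThree
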