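import Cfsg.Agent.GLTwoThree.Plane
import Cfsg.Agent.CommGraph.PSLThreeThree

/-!
# Recognition of `PSL₃(3)` from the parabolic subgroup
-/

set_option autoImplicit false
set_option linter.unusedSectionVars false
set_option linter.style.haveILetI false

noncomputable section

namespace Cfsg.Agent.GLTwoThree.Plane

open Subgroup Cfsg.Agent.CommGraph.PlaneThree
open Fin.CommRing

universe u

theorem mul_right_injective_thirteen :
    ∀ s : Fin 13, s ≠ 0 → ∀ j k : Fin 13, j * s = k * s → j = k := by decide +kernel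

/-- The differences of `0, 1, c, d` are pairwise distinct. -/
def diffOK (c d : Fin 13) : Bool :=
  let L : List (Fin 13) := [0, 1, c, d]
  L.all fun a => L.all fun b => L.all fun a' => L.all fun b' =>
    a == b || !(b - a == b' - a') || a == a'

/-- `0, 1, c, d` is an affine image of the difference set. -/
def matchOK (c d : Fin 13) : Bool :=
  (List.finRange 13).any fun m => (List.finRange 13).any fun s =>
    !(m == 0) && (List.finRange 13).all fun r =>
      inc r 0 == [(0 : Fin 13), 1, c, d].contains (m * r + s)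

theorem matchOK_of_diffOK :
    ((List.finRange 13).all fun c => (List.finRange 13).all fun d =>
      c == 0 || c == 1 || d == 0 || d == 1 || c == d || !diffOK c d || matchOK c d) = true := by
  decide +kernel

theorem diff_set_normal (c d : Fin 13)
    (hdiff : ∀ a ∈ [(0 : Fin 13), 1, c, d], ∀ b ∈ [(0 : Fin 13), 1, c, d],
      ∀ a' ∈ [(0 : Fin 13), 1, c, d], ∀ b' ∈ [(0 : Fin 13), 1, c, d],
        a ≠ b → b - a = b' - a' → a = a')
    (hc0 : c ≠ 0) (hc1 : c ≠ 1) (hd0 : d ≠ 0) (hd1 : d ≠ 1) (hcd : c ≠ d) :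
    ∃ m s : Fin 13, m ≠ 0 ∧ ∀ r, inc r 0 = true ↔ m * r + s ∈ [(0 : Fin 13), 1, c, d] := by
  have h1 := List.all_eq_true.1 (List.all_eq_true.1 matchOK_of_diffOK c (List.mem_finRange c)) d
    (List.mem_finRange d)
  have hok : diffOK c d = true := by
    simp only [diffOK, List.all_eq_true, Bool.or_eq_true, beq_iff_eq, Bool.not_eq_true',
      beq_eq_false_iff_ne]
    intro a ha b hb a' ha' b' hb'
    by_cases hab : a = b
    · exact Or.inl (Or.inl hab)
    by_cases heq : b - a = b' - a'
    · exact Or.inr (hdiff a ha b hb a' ha' b' hb' hab heq)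
    · exact Or.inl (Or.inr heq)
  have hmatch : matchOK c d = true := by simpa [hc0, hc1, hd0, hd1, hcd, hok] using h1
  simp only [matchOK, List.any_eq_true, Bool.and_eq_true, Bool.not_eq_true', beq_eq_false_iff_ne,
    List.all_eq_true, beq_iff_eq] at hmatch
  obtain ⟨m, -, s, -, hm, hr⟩ := hmatch
  refine ⟨m, s, hm, fun r => ?_⟩
  rw [hr r (List.mem_finRange r), List.contains_iff_mem]

theorem inc_sub (r l : Fin 13) : inc r l = inc (r - l) 0 := by simp [inc]

variable {G : Type u} [Group G] [Finite G] {Q : Subgroup G} (h : IsParabolic Q)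

include h

theorem exists_cycle : ∃ ω : Fin 13 ≃ Pts Q, ∃ g : G,
    ∀ i j : Fin 13, g ^ (j : ℕ) • ω i = ω (j + i) := by
  haveI : Fact (Nat.Prime 13) := ⟨by norm_num⟩
  obtain ⟨g, hg⟩ := exists_prime_orderOf_dvd_card' (G := G) 13 (by rw [h.cardG]; norm_num)
  have hpow : ∀ i j : Fin 13, g ^ ((j + i : Fin 13) : ℕ) = g ^ (j : ℕ) * g ^ (i : ℕ) := by
    intro i j
    rw [← pow_add, Fin.val_add]
    conv_rhs => rw [← pow_mod_orderOf, hg]
  have hnf : g • base Q ≠ base Q := by
    intro hc
    have h1 := Subgroup.orderOf_dvd_natCard _ (smul_base_iff.1 hc)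
    rw [hg, h.cardN] at h1
    norm_num at h1
  have hinj : Function.Injective fun i : Fin 13 => g ^ (i : ℕ) • base Q := by
    intro i j hij
    simp only at hij
    by_contra hne
    have hs : g ^ ((j - i : Fin 13) : ℕ) • base Q = base Q := by
      have h1 : g ^ (i : ℕ) • (g ^ ((j - i : Fin 13) : ℕ) • base Q) = g ^ (i : ℕ) • base Q := by
        rw [← mul_smul, ← hpow, add_sub_cancel, hij]
      exact smul_left_cancel _ h1
    refine hnf (fix_of_mem_zpowers hs ?_)
    have hco : Nat.Coprime ((j - i : Fin 13) : ℕ) (orderOf g) := by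
      rw [hg]
      refine (Nat.Coprime.symm ((Nat.Prime.coprime_iff_not_dvd (by norm_num)).2 fun hd => ?_))
      have h0 := Nat.eq_zero_of_dvd_of_lt hd (j - i : Fin 13).isLt
      exact hne (sub_eq_zero.1 (Fin.ext h0)).symm
    have h13 : g ^ 13 = 1 := by rw [← hg, pow_orderOf_eq_one]
    obtain ⟨m, hm⟩ := Nat.exists_mul_mod_eq_one_of_coprime hco (by rw [hg]; norm_num)
    refine Subgroup.mem_zpowers_iff.2 ⟨(m : ℤ), ?_⟩
    rw [zpow_natCast, ← pow_mul, ← pow_mod_orderOf, hm.2, pow_one]
  have hbij : Function.Bijective fun i : Fin 13 => g ^ (i : ℕ) • base Q :=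
    (Nat.bijective_iff_injective_and_card _).2 ⟨hinj, by rw [Nat.card_fin, card_pts h]⟩
  refine ⟨Equiv.ofBijective _ hbij, g, fun i j => ?_⟩
  show g ^ (j : ℕ) • g ^ (i : ℕ) • base Q = g ^ ((j + i : Fin 13) : ℕ) • base Q
  rw [hpow, mul_smul]

theorem exists_label [IsSimpleGroup G] : ∃ φ : Fin 13 ≃ Pts Q, ∀ p q r, p ≠ q →
    (φ r ∈ line (φ p) (φ q) ↔ inc r (lineThrough p q) = true) := by
  classical
  obtain ⟨ω, g, hω⟩ := exists_cycle h
  have htr : ∀ s p q r : Fin 13,
      ω (s + r) ∈ line (ω (s + p)) (ω (s + q)) ↔ ω r ∈ line (ω p) (ω q) := fun s p q r => by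
    rw [← hω, ← hω, ← hω, smul_mem_line]
  set L : Finset (Fin 13) := Finset.univ.filter fun r => ω r ∈ line (ω 0) (ω 1) with hL
  have hLmem : ∀ r, r ∈ L ↔ ω r ∈ line (ω 0) (ω 1) := fun r => by simp [hL]
  have h01 : ω 1 ≠ ω 0 := fun hc => absurd (ω.injective hc) (by decide)
  have hLcard : L.card = 4 := by
    rw [← line_ncard h h01, ← Set.ncard_coe_finset]
    refine Set.ncard_congr (fun r _ => ω r) (fun r hr => (hLmem r).1 hr)
      (fun a b _ _ hab => ω.injective hab) fun b hb => ?_
    exact ⟨ω.symm b, (hLmem _).2 (by rwa [ω.apply_symm_apply]), ω.apply_symm_apply b⟩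
  have h0L : (0 : Fin 13) ∈ L := (hLmem 0).2 (left_mem_line _ _)
  have h1L : (1 : Fin 13) ∈ L := (hLmem 1).2 (right_mem_line _ _)
  have hline : ∀ a ∈ L, ∀ b ∈ L, a ≠ b → line (ω a) (ω b) = line (ω 0) (ω 1) := by
    intro a ha b hb hab
    have hb' := (hLmem b).1 hb
    by_cases ha0 : a = 0
    · subst ha0
      exact line_eq_of_mem h h01 (fun hc => hab (ω.injective hc).symm) hb'
    · have h1 := line_eq_of_mem h h01 (fun hc => ha0 (ω.injective hc)) ((hLmem a).1 ha)
      have h2 : line (ω a) (ω 0) = line (ω 0) (ω 1) := by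
        rw [line_comm h fun hc => ha0 (ω.injective hc), h1]
      rw [← h2] at hb' ⊢
      exact line_eq_of_mem h (fun hc => ha0 (ω.injective hc).symm)
        (fun hc => hab (ω.injective hc).symm) hb'
  have hdiff : ∀ a ∈ L, ∀ b ∈ L, ∀ a' ∈ L, ∀ b' ∈ L, a ≠ b → b - a = b' - a' → a = a' := by
    intro a ha b hb a' ha' b' hb' hab heq
    by_contra hne
    have hs : a' - a ≠ 0 := sub_ne_zero.2 (Ne.symm hne)
    have ea : a' - a + a = a' := sub_add_cancel _ _
    have eb : a' - a + b = b' := by
      calc a' - a + b = a' + (b - a) := by ring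
        _ = b' := by rw [heq]; ring
    have hab' : a' ≠ b' := fun hc => hab (by
      rw [← ea, ← eb] at hc; exact add_left_cancel hc)
    have hclosed : ∀ r ∈ L, a' - a + r ∈ L := by
      intro r hr
      rw [hLmem, ← hline a' ha' b' hb' hab']
      have h1 : ω r ∈ line (ω a) (ω b) := by
        rw [hline a ha b hb hab]; exact (hLmem r).1 hr
      have h2 := (htr (a' - a) a b r).2 h1
      rwa [ea, eb] at h2
    have hall : ∀ k : Fin 13, k * (a' - a) + a ∈ L := by
      have hn : ∀ n : ℕ, ((n : Fin 13) * (a' - a) + a) ∈ L := by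
        intro n
        induction n with
        | zero => simpa using ha
        | succ n ih =>
          have h3 := hclosed _ ih
          rwa [show a' - a + ((n : Fin 13) * (a' - a) + a) =
            ((n + 1 : ℕ) : Fin 13) * (a' - a) + a by push_cast; ring] at h3
      intro k
      simpa using hn k
    have h13 : (Finset.univ : Finset (Fin 13)).card ≤ L.card :=
      Finset.card_le_card_of_injOn (fun k => k * (a' - a) + a) (fun k _ => hall k)
        fun j _ k _ hjk => mul_right_injective_thirteen _ hs j k (add_right_cancel hjk)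
    rw [hLcard, Finset.card_univ, Fintype.card_fin] at h13
    omega
  have hrest : ((L.erase 0).erase 1).card = 2 := by
    rw [Finset.card_erase_of_mem (Finset.mem_erase.2 ⟨by decide, h1L⟩),
      Finset.card_erase_of_mem h0L, hLcard]
  obtain ⟨c, d, hcd, hset⟩ := Finset.card_eq_two.1 hrest
  have hLlist : ∀ r, r ∈ L ↔ r ∈ [(0 : Fin 13), 1, c, d] := by
    intro r
    have h1 : r ∈ (L.erase 0).erase 1 ↔ r = c ∨ r = d := by rw [hset]; simp
    simp only [Finset.mem_erase] at h1
    simp only [List.mem_cons, List.not_mem_nil, or_false]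
    by_cases hr0 : r = 0
    · simp [hr0, h0L]
    by_cases hr1 : r = 1
    · simp [hr1, h1L]
    simp [hr0, hr1] at h1 ⊢
    exact h1
  have hc := (Finset.mem_erase.1 (show c ∈ (L.erase 0).erase 1 by rw [hset]; simp))
  have hd := (Finset.mem_erase.1 (show d ∈ (L.erase 0).erase 1 by rw [hset]; simp))
  obtain ⟨m, s, hm, hms⟩ := diff_set_normal c d
    (fun a ha b hb a' ha' b' hb' => hdiff a ((hLlist a).2 ha) b ((hLlist b).2 hb) a'
      ((hLlist a').2 ha') b' ((hLlist b').2 hb'))
    (Finset.mem_erase.1 hc.2).1 hc.1 (Finset.mem_erase.1 hd.2).1 hd.1 hcd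
  have hbij : Function.Bijective fun i : Fin 13 => ω (m * i + s) :=
    ω.bijective.comp (Finite.injective_iff_bijective.1 fun i j hij => by
      refine mul_right_injective_thirteen m hm i j ?_
      rw [mul_comm i, mul_comm j]
      exact add_right_cancel hij)
  refine ⟨Equiv.ofBijective _ hbij, fun p q r hpq => ?_⟩
  set l := lineThrough p q with hl
  have hP : m * (p - l) + s ∈ L :=
    (hLlist _).2 ((hms _).1 (inc_sub p l ▸ (lineThrough_inc p q).1))
  have hQ : m * (q - l) + s ∈ L :=
    (hLlist _).2 ((hms _).1 (inc_sub q l ▸ (lineThrough_inc p q).2))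
  have hne : m * (p - l) + s ≠ m * (q - l) + s := fun hc => hpq (by
    have := mul_right_injective_thirteen m hm (p - l) (q - l)
      (by rw [mul_comm (p - l), mul_comm (q - l)]; exact add_right_cancel hc)
    exact sub_left_injective this)
  show ω (m * r + s) ∈ line (ω (m * p + s)) (ω (m * q + s)) ↔ _
  rw [show m * r + s = m * l + (m * (r - l) + s) by ring,
    show m * p + s = m * l + (m * (p - l) + s) by ring,
    show m * q + s = m * l + (m * (q - l) + s) by ring, htr, hline _ hP _ hQ hne, ← hLmem, hLlist,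
    ← hms, ← inc_sub]

omit h

/-- A permutation of points preserving collinearity. -/
def Coll (π : Equiv.Perm (Fin 13)) : Prop :=
  ∀ p q r, p ≠ q → (inc r (lineThrough p q) = true ↔ inc (π r) (lineThrough (π p) (π q)) = true)

/-- The induced map of flags. -/
def flagMap (π : Equiv.Perm (Fin 13)) (a : Flag) : Flag :=
  (exists_flag (lineThrough_inc (π (pt a)) (π (pt (exists_other_ln a).choose))).1).choose

theorem pt_flagMap (π : Equiv.Perm (Fin 13)) (a : Flag) : pt (flagMap π a) = π (pt a) :=
  (exists_flag (lineThrough_inc (π (pt a)) (π (pt (exists_other_ln a).choose))).1).choose_spec.1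

theorem inc_flagMap {π : Equiv.Perm (Fin 13)} (hπ : Coll π) {a : Flag} {p : Fin 13} :
    inc (π p) (ln (flagMap π a)) = true ↔ inc p (ln a) = true := by
  obtain ⟨hb, hba⟩ := (exists_other_ln a).choose_spec
  have hln : ln (flagMap π a) = lineThrough (π (pt a)) (π (pt (exists_other_ln a).choose)) :=
    (exists_flag (lineThrough_inc (π (pt a)) (π (pt (exists_other_ln a).choose))).1).choose_spec.2
  have hne : pt a ≠ pt (exists_other_ln a).choose := fun hc => hba (flag_ext _ _ hc.symm hb)
  have hb' : inc (pt (exists_other_ln a).choose) (ln a) = true := by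
    have h2 := inc_flag (exists_other_ln a).choose
    rwa [hb] at h2
  rw [hln, ← hπ _ _ p hne, ← line_unique _ _ (ln a) hne (inc_flag a) hb']

theorem flagMap_ln {π : Equiv.Perm (Fin 13)} (hπ : Coll π) {a b : Flag} (hab : ln a = ln b) :
    ln (flagMap π a) = ln (flagMap π b) := by
  obtain ⟨p, q, hpq, hp, hq⟩ := two_all_lines (ln a)
  have hne : π p ≠ π q := fun hc => hpq (π.injective hc)
  rw [line_unique _ _ _ hne ((inc_flagMap hπ).2 hp) ((inc_flagMap hπ).2 hq),
    line_unique _ _ _ hne ((inc_flagMap hπ).2 (hab ▸ hp)) ((inc_flagMap hπ).2 (hab ▸ hq))]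

theorem presP_flagMap {π : Equiv.Perm (Fin 13)} (hπ : Coll π) : PresP (flagMap π) :=
  ⟨fun a b hab => by rw [pt_flagMap, pt_flagMap, hab], fun _ _ hab => flagMap_ln hπ hab⟩

theorem adj_flagMap {π : Equiv.Perm (Fin 13)} (hπ : Coll π) {a b : Flag} (hab : Adj a b) :
    Adj (flagMap π a) (flagMap π b) :=
  hab.imp ((presP_flagMap hπ).1 a b) ((presP_flagMap hπ).2 a b)

theorem coll_mul {π τ : Equiv.Perm (Fin 13)} (hπ : Coll π) (hτ : Coll τ) : Coll (π * τ) :=
  fun p q r hpq => (hτ p q r hpq).trans (hπ _ _ _ fun hc => hpq (τ.injective hc))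

theorem coll_one : Coll 1 := fun _ _ _ _ => Iff.rfl

theorem flagMap_mul {π τ : Equiv.Perm (Fin 13)} (hπ : Coll π) (hτ : Coll τ) (a : Flag) :
    flagMap (π * τ) a = flagMap π (flagMap τ a) := by
  refine flag_ext _ _ (by rw [pt_flagMap, pt_flagMap, pt_flagMap]; rfl) ?_
  obtain ⟨p, q, hpq, hp, hq⟩ := two_all_lines (ln a)
  have hne : π (τ p) ≠ π (τ q) := fun hc => hpq (τ.injective (π.injective hc))
  have hπτ := coll_mul hπ hτ
  have e1 : ∀ x, inc x (ln a) = true → inc (π (τ x)) (ln (flagMap (π * τ) a)) = true :=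
    fun x hx => (inc_flagMap hπτ).2 hx
  rw [line_unique _ _ _ hne (e1 p hp) (e1 q hq),
    line_unique _ _ _ hne ((inc_flagMap hπ).2 ((inc_flagMap hτ).2 hp))
      ((inc_flagMap hπ).2 ((inc_flagMap hτ).2 hq))]

theorem flagMap_one (a : Flag) : flagMap 1 a = a := by
  refine flag_ext _ _ (pt_flagMap 1 a) ?_
  obtain ⟨p, q, hpq, hp, hq⟩ := two_all_lines (ln a)
  rw [line_unique p q _ hpq hp hq]
  exact line_unique p q _ hpq ((inc_flagMap (π := 1) coll_one).2 hp)
    ((inc_flagMap (π := 1) coll_one).2 hq)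

include h

theorem exists_hom_collineations [IsSimpleGroup G] :
    ∃ ψ : G →* Equiv.Perm Flag, Function.Injective ψ ∧ ∀ g, ψ g ∈ collineations := by
  obtain ⟨φ, hφ⟩ := exists_label h
  let π : G →* Equiv.Perm (Fin 13) :=
    { toFun := fun g => (φ.trans (MulAction.toPerm g)).trans φ.symm
      map_one' := Equiv.ext fun i => by simp
      map_mul' := fun a b => Equiv.ext fun i => by simp [mul_smul] }
  have hπφ : ∀ g i, φ (π g i) = g • φ i := fun g i => φ.apply_symm_apply _
  have hcoll : ∀ g, Coll (π g) := by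
    intro g p q r hpq
    rw [← hφ p q r hpq, ← hφ _ _ _ fun hc => hpq ((π g).injective hc), hπφ, hπφ, hπφ, smul_mem_line]
  let ψ : G →* Equiv.Perm Flag :=
    { toFun := fun g =>
        { toFun := flagMap (π g)
          invFun := flagMap (π g⁻¹)
          left_inv := fun a => by
            rw [← flagMap_mul (hcoll _) (hcoll _), ← map_mul, inv_mul_cancel, map_one, flagMap_one]
          right_inv := fun a => by
            rw [← flagMap_mul (hcoll _) (hcoll _), ← map_mul, mul_inv_cancel, map_one, flagMap_one] }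
      map_one' := Equiv.ext fun a => by
        show flagMap (π 1) a = a
        rw [map_one, flagMap_one]
      map_mul' := fun x y => Equiv.ext fun a => by
        show flagMap (π (x * y)) a = flagMap (π x) (flagMap (π y) a)
        rw [map_mul, flagMap_mul (hcoll _) (hcoll _)] }
  refine ⟨ψ, (injective_iff_map_eq_one ψ).2 fun g hg => smul_faithful h fun r => ?_, fun g =>
    ⟨fun a b => ⟨adj_flagMap (hcoll g), fun hab => ?_⟩, presP_flagMap (hcoll g)⟩⟩
  · obtain ⟨i, rfl⟩ := φ.surjective r
    rw [← hπφ]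
    have h1 := congrArg pt (Equiv.ext_iff.1 hg (i, (0 : Fin 4)))
    rw [show ψ g (i, (0 : Fin 4)) = flagMap (π g) (i, 0) from rfl, pt_flagMap] at h1
    exact congrArg φ h1
  · have h1 := adj_flagMap (hcoll g⁻¹) hab
    rwa [show flagMap (π g⁻¹) (ψ g a) = a from (ψ g).left_inv a,
      show flagMap (π g⁻¹) (ψ g b) = b from (ψ g).left_inv b] at h1

open CommGraph.LThree in
theorem nonempty_mulEquiv [IsSimpleGroup G] :
    Nonempty (G ≃* Matrix.SpecialLinearGroup (Fin 3) (ZMod 3)) := by
  obtain ⟨ψ, hψ, hψc⟩ := exists_hom_collineations h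
  have he0 : ∀ x y : Matrix.SpecialLinearGroup (Fin 3) (ZMod 3),
      Commute x y ↔ Commute (Equiv.refl _ x) (Equiv.refl _ y) := fun _ _ => Iff.rfl
  let φ0 := betaHom (Equiv.refl _) he0
  have hφ0 : Function.Injective φ0 := betaHom_injective _ he0
  have hφ0c : ∀ s, φ0 s ∈ collineations := fun s =>
    mem_collineations _ he0 (by rw [ptStab_refl_eq_top he0]; exact Subgroup.mem_top s)
  have key : ∀ {K : Type u} [Group K] (f : K →* Equiv.Perm Flag), Function.Injective f →
      (∀ k, f k ∈ collineations) → Nat.card K = 5616 →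
      ((f.range : Subgroup (Equiv.Perm Flag)) : Set (Equiv.Perm Flag)) = collineations := by
    intro K _ f hf hfc hK
    refine Set.eq_of_subset_of_ncard_le ?_ ?_ (Set.toFinite _)
    · rintro _ ⟨k, rfl⟩
      exact hfc k
    · rw [← Nat.card_coe_set_eq, ← Nat.card_coe_set_eq]
      refine card_collineations_le.trans (le_of_eq ?_)
      rw [← hK]
      exact Nat.card_congr (MonoidHom.ofInjective hf).toEquiv
  have h0 : ((φ0.range : Subgroup (Equiv.Perm Flag)) : Set (Equiv.Perm Flag)) = collineations := by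
    refine Set.eq_of_subset_of_ncard_le ?_ ?_ (Set.toFinite _)
    · rintro _ ⟨k, rfl⟩
      exact hφ0c k
    · rw [← Nat.card_coe_set_eq, ← Nat.card_coe_set_eq]
      refine card_collineations_le.trans (le_of_eq ?_)
      rw [← card_SThree]
      exact Nat.card_congr (MonoidHom.ofInjective hφ0).toEquiv
  have heq : ψ.range = φ0.range := SetLike.coe_injective ((key ψ hψ hψc h.cardG).trans h0.symm)
  exact ⟨(MonoidHom.ofInjective hψ).trans
    ((MulEquiv.subgroupCongr heq).trans (MonoidHom.ofInjective hφ0).symm)⟩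

end Cfsg.Agent.GLTwoThree.Plane
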