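import Mathlib.Tactic

/-!
# The Diophantine conditions for the involution centralizer `GL (2, 3)`
-/

set_option autoImplicit false

namespace Cfsg.Agent.GLTwoThree

theorem second_impossible {h p r s m n : ℤ} (hhp : (h = 45 ∧ p = -6) ∨ (h = 77 ∧ p = -22))
    (hs : p + r + s = 0) (hmn : 2 + m + n = 0) (hm : Odd m) (hn : Odd n)
    (hb : m ^ 2 + n ^ 2 ≤ 34) (hr : 16 ∣ r + 5 * m + 2) (hs' : 16 ∣ s + 5 * n + 2)
    (he : h * (4 * r * s + m ^ 2 * p * s + n ^ 2 * p * r) = 96 * p * r * s) : False := by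
  obtain rfl : n = -2 - m := by omega
  obtain rfl : s = -p - r := by omega
  obtain ⟨i, rfl⟩ := hm
  have h1 : -4 ≤ i := by nlinarith
  have h2 : i ≤ 2 := by nlinarith
  rcases hhp with ⟨rfl, rfl⟩ | ⟨rfl, rfl⟩ <;> interval_cases i <;> (try norm_num at he) <;> (try norm_num at hb) <;>
    first
    | omega
    | (have h3 : -1 < r := by nlinarith
       have h4 : r < 25 := by nlinarith
       interval_cases r <;> omega)

/-- The arithmetic of the two exceptional class functions. -/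
theorem order_cases {h p q r s a c m n : ℤ} (hh : Odd h) (hh0 : 0 < h)
    (hpq : 1 + p + q = 0) (hac : 1 + a + c = 0) (hprs : p + r + s = 0) (hamn : a + m + n = 0)
    (ha : Even a) (hm : Odd m) (hn : Odd n)
    (hcol : 1 + a ^ 2 + c ^ 2 + m ^ 2 + n ^ 2 ≤ 48)
    (hp : 16 ∣ p + 5 * a + 12) (hr : 16 ∣ r + 5 * m + 2) (hs : 16 ∣ s + 5 * n + 2)
    (h1 : h * (p * q + a ^ 2 * q + c ^ 2 * p) = 96 * p * q)
    (h2 : h * (a ^ 2 * r * s + m ^ 2 * p * s + n ^ 2 * p * r) = 96 * p * r * s) :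
    h = 117 ∨ h = 165 := by
  obtain rfl : q = -1 - p := by omega
  obtain rfl : c = -1 - a := by omega
  have key : h * (p - a) ^ 2 = 96 * p * (p + 1) := by linear_combination (-1 : ℤ) * h1
  have hm1 : 1 ≤ m ^ 2 := by
    have : m ≠ 0 := by rintro rfl; simp at hm
    have : 0 < m ^ 2 := by positivity
    omega
  obtain ⟨b, rfl⟩ := ha
  have hb1 : -2 ≤ b := by nlinarith
  have hb2 : b ≤ 2 := by nlinarith
  obtain ⟨j, hj⟩ := hp
  have hodd2 : ∀ x : ℤ, Odd (h * (2 * x + 1) ^ 2) := fun x =>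
    hh.mul ((odd_two_mul_add_one x).pow)
  interval_cases b
  · -- a = -4
    obtain rfl : p = 16 * j + 8 := by omega
    refine absurd ?_ (Int.not_even_iff_odd.2 (hodd2 (2 * j + 1)))
    exact ⟨24 * (2 * j + 1) * (16 * j + 9), by linarith [key]⟩
  · -- a = -2
    obtain rfl : p = 16 * j - 2 := by omega
    have h3 : Odd (3 * (8 * j - 1) * (16 * j - 1) : ℤ) :=
      ((by decide : Odd (3 : ℤ)).mul ⟨4 * j - 1, by ring⟩).mul ⟨8 * j - 1, by ring⟩
    refine absurd ?_ (Int.not_even_iff_odd.2 h3)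
    exact ⟨2 * h * j ^ 2, by linarith [key]⟩
  · -- a = 0
    obtain rfl : p = 16 * j - 12 := by omega
    refine absurd ?_ (Int.not_even_iff_odd.2 (hodd2 (2 * j - 2)))
    exact ⟨12 * (4 * j - 3) * (16 * j - 11), by linarith [key]⟩
  · -- a = 2
    obtain ⟨k, rfl, hk⟩ : ∃ k, p = 2 + 8 * k ∧ Odd k := ⟨2 * j - 3, by omega, ⟨j - 2, by ring⟩⟩
    have hk2 : h * k ^ 2 = 3 * (1 + 4 * k) * (3 + 8 * k) := by linarith [key]
    have hdvd : k ∣ 9 := ⟨h * k - 96 * k - 60, by linear_combination -hk2⟩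
    have hk0 : k ≠ 0 := by rintro rfl; simp at hk
    have hle : |k| ≤ 9 := Int.le_of_dvd (by norm_num) ((abs_dvd k 9).2 hdvd)
    obtain ⟨hlo, hhi⟩ := abs_le.1 hle
    have hk3 : k = -9 ∨ k = -3 ∨ k = -1 ∨ k = 1 ∨ k = 3 ∨ k = 9 := by
      interval_cases k <;> first | (exfalso; revert hdvd; decide) | omega
    have hcol' : m ^ 2 + n ^ 2 ≤ 34 := by linarith
    rcases hk3 with rfl | rfl | rfl | rfl | rfl | rfl <;> norm_num at hk2
    · omega
    · exact (second_impossible (h := h) (p := 2 + 8 * (-3)) (Or.inr ⟨by omega, by norm_num⟩) hprs (by linarith) hm hn hcol' hr hs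
        (by linear_combination h2)).elim
    · exact (second_impossible (h := h) (p := 2 + 8 * (-1)) (Or.inl ⟨by omega, by norm_num⟩) hprs (by linarith) hm hn hcol' hr hs
        (by linear_combination h2)).elim
    · omega
    · omega
    · omega
  · -- a = 4
    obtain rfl : p = 16 * j - 32 := by omega
    refine absurd ?_ (Int.not_even_iff_odd.2 (hodd2 (2 * j - 5)))
    exact ⟨48 * (j - 2) * (16 * j - 31), by linarith [key]⟩

end Cfsg.Agent.GLTwoThree
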