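import Mathlib.Tactic
import Mathlib.Algebra.Order.BigOperators.Ring.Finset

/-!
# Two integral vectors of norm `3` and inner product `1`
-/

set_option autoImplicit false

namespace Cfsg.Agent.GLTwoThree

variable {ι : Type*} [Fintype ι]

theorem unit_values {b : ι → ℤ} (hb : ∑ x, b x ^ 2 = 3) (x : ι) (hx : b x ≠ 0) :
    b x = 1 ∨ b x = -1 := by
  have h := Finset.single_le_sum (f := fun y => b y ^ 2) (fun y _ => sq_nonneg _)
    (Finset.mem_univ x)
  simp only [hb] at h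
  have h1 : b x ≤ 1 := by nlinarith
  have h2 : -1 ≤ b x := by nlinarith
  omega

theorem card_supp [DecidableEq ι] {b : ι → ℤ} (hb : ∑ x, b x ^ 2 = 3) :
    (Finset.univ.filter fun x => b x ≠ 0).card = 3 := by
  have h : ∀ x, b x ^ 2 = if b x ≠ 0 then 1 else 0 := fun x => by
    by_cases hx : b x = 0
    · simp [hx]
    · rcases unit_values hb x hx with h | h <;> simp [h]
  rw [Finset.sum_congr rfl fun x _ => h x, Finset.sum_boole] at hb
  exact_mod_cast hb

/-- The two supports share one element besides the distinguished one. -/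
theorem exists_supports {b b' : ι → ℤ} (o : ι) (hb : ∑ x, b x ^ 2 = 3)
    (hb' : ∑ x, b' x ^ 2 = 3) (hbb : ∑ x, b x * b' x = 1) (ho : b o = 1) (ho' : b' o = 0) :
    ∃ y z v w, [o, y, z, v, w].Nodup ∧
      (∀ x, b x ≠ 0 ↔ x = o ∨ x = y ∨ x = z) ∧ (∀ x, b' x ≠ 0 ↔ x = y ∨ x = v ∨ x = w) ∧
      b' y = b y := by
  classical
  set A := Finset.univ.filter fun x => b x ≠ 0 with hA
  set B := Finset.univ.filter fun x => b' x ≠ 0 with hB
  have hmA : ∀ x, x ∈ A ↔ b x ≠ 0 := fun x => by simp [hA]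
  have hmB : ∀ x, x ∈ B ↔ b' x ≠ 0 := fun x => by simp [hB]
  have hoA : o ∈ A := (hmA o).2 (by omega)
  have hoB : o ∉ B := fun h => (hmB o).1 h ho'
  have hA2 : (A.erase o).card = 2 := by rw [Finset.card_erase_of_mem hoA, card_supp hb]
  obtain ⟨a₁, a₂, hne, ha⟩ := Finset.card_eq_two.1 hA2
  have hAeq : ∀ x, b x ≠ 0 ↔ x = o ∨ x = a₁ ∨ x = a₂ := fun x => by
    rw [← hmA, ← Finset.insert_erase hoA, ha]
    simp
  have hsum : b a₁ * b' a₁ + b a₂ * b' a₂ = 1 := by
    rw [← hbb, ← Finset.sum_subset (Finset.subset_univ A) (fun x _ hx => by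
        rw [hmA, not_not] at hx
        rw [hx, zero_mul]),
      ← Finset.insert_erase hoA, ha, Finset.sum_insert (by rw [← ha]; exact Finset.notMem_erase o A),
      Finset.sum_pair hne, ho', mul_zero, zero_add]
  have main : ∀ y z, o ≠ y → o ≠ z → y ≠ z → (∀ x, b x ≠ 0 ↔ x = o ∨ x = y ∨ x = z) →
      b y * b' y + b z * b' z = 1 → b' z = 0 →
      ∃ y z v w, [o, y, z, v, w].Nodup ∧
      (∀ x, b x ≠ 0 ↔ x = o ∨ x = y ∨ x = z) ∧ (∀ x, b' x ≠ 0 ↔ x = y ∨ x = v ∨ x = w) ∧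
      b' y = b y := by
    intro y z hoy hoz hyz hAy hs hz
    rw [hz, mul_zero, add_zero] at hs
    have hy' : b' y ≠ 0 := fun h => by rw [h, mul_zero] at hs; omega
    have hB2 : (B.erase y).card = 2 := by
      rw [Finset.card_erase_of_mem ((hmB y).2 hy'), card_supp hb']
    obtain ⟨v, w, hvw, hB'⟩ := Finset.card_eq_two.1 hB2
    have hBy : ∀ x, b' x ≠ 0 ↔ x = y ∨ x = v ∨ x = w := fun x => by
      rw [← hmB, ← Finset.insert_erase ((hmB y).2 hy'), hB']
      simp
    have hv : v ∈ B.erase y := by rw [hB']; simp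
    have hw : w ∈ B.erase y := by rw [hB']; simp
    rw [Finset.mem_erase, hmB] at hv hw
    have hov : o ≠ v := fun h => hv.2 (h ▸ ho')
    have how : o ≠ w := fun h => hw.2 (h ▸ ho')
    have hzv : z ≠ v := fun h => hv.2 (h ▸ hz)
    have hzw : z ≠ w := fun h => hw.2 (h ▸ hz)
    refine ⟨y, z, v, w, ?_, hAy, hBy, ?_⟩
    · simp [hoy, hoz, hyz, hov, how, hzv, hzw, hvw, Ne.symm hv.1, Ne.symm hw.1]
    · rcases Int.mul_eq_one_iff_eq_one_or_neg_one.1 hs with ⟨h1, h2⟩ | ⟨h1, h2⟩ <;> omega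
  have h₁ : o ≠ a₁ := by
    rintro rfl; exact Finset.notMem_erase o A (by rw [ha]; simp)
  have h₂ : o ≠ a₂ := by
    rintro rfl; exact Finset.notMem_erase o A (by rw [ha]; simp)
  have hz : b' a₁ = 0 ∨ b' a₂ = 0 := by
    by_contra hn
    push Not at hn
    rcases unit_values hb a₁ ((hAeq _).2 (by simp)) with h | h <;>
      rcases unit_values hb a₂ ((hAeq _).2 (by simp)) with h' | h' <;>
      rcases unit_values hb' a₁ hn.1 with k | k <;>
      rcases unit_values hb' a₂ hn.2 with k' | k' <;> rw [h, h', k, k'] at hsum <;> omega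
  rcases hz with hz | hz
  · exact main a₂ a₁ h₂ h₁ hne.symm (fun x => (hAeq x).trans (by tauto)) (by linarith) hz
  · exact main a₁ a₂ h₁ h₂ hne hAeq hsum hz

end Cfsg.Agent.GLTwoThree
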