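import Cfsg.Agent.GLTwoThree.Setup
import Cfsg.Agent.GLTwoThree.Arith
import Cfsg.Agent.GLTwoThree.Supports

/-!
# The order of a simple group with an involution centralizer `GL (2, 3)`
-/

set_option autoImplicit false
set_option linter.unusedSectionVars false
set_option linter.style.haveILetI false

noncomputable section

namespace Cfsg.Agent.GLTwoThree

open scoped ComplexConjugate
open Subgroup

universe u

theorem sylow_sum_int {ψ : H → ℂ} (hψ : IsGeneralizedCharacter H ψ) :
    ∃ m : ℤ, ∑ i, (if el i ∈ sylow then (1 : ℤ) else 0 : ℤ) * ψ (el i) = 16 * m := by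
  classical
  letI := Fintype.ofFinite H
  letI := Fintype.ofFinite sylow
  obtain ⟨m, hm⟩ := Char.classInner_generalized_int
    (Char.isGeneralizedCharacter_comp hψ sylow.subtype)
    (Char.isGeneralizedCharacter_of_irr (Char.isIrrCharacter_const_one (G := sylow)))
  refine ⟨m, ?_⟩
  rw [← hm, classInner, natCard_sylow, Nat.cast_ofNat, mul_inv_cancel_left₀ (by norm_num)]
  have h1 : ∑ c : sylow, ψ c = ∑ g : H, if g ∈ sylow then ψ g else 0 := by
    rw [← Finset.sum_filter]
    exact (Finset.sum_subtype _ (fun x => by simp) ψ).symm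
  simp only [Function.comp_apply, Subgroup.coe_subtype, map_one, mul_one]
  rw [h1, sum_el]
  refine Finset.sum_congr rfl fun i _ => ?_
  split_ifs <;> simp

variable {G : Type u} [Group G] [Fintype G] [IsSimpleGroup G] {t : G}
  (e : centralizer ({t} : Set G) ≃* H) (ht : orderOf t = 2)

include ht in
/-- The values of an irreducible character. -/
theorem char_facts (χ : IrrCharacter G) (b b' : ℤ)
    (hb : classInner (χ : G → ℂ) (special e bOne) = b)
    (hb' : classInner (χ : G → ℂ) (special e bTwo) = b') :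
    ∃ (d : ℕ) (T : ℤ), 0 < d ∧ (χ : G → ℂ) 1 = d ∧ (χ : G → ℂ) t = T ∧
      16 ∣ (d : ℤ) + 5 * T + 10 * b + 2 * b' ∧ 2 ∣ T + b + b' := by
  obtain ⟨d, hd0, hd⟩ := Char.irr_one_pos χ.2
  obtain ⟨T, hT, -⟩ :=
    SmallGroups.Exceptional.exists_involution_value (Char.isCharacter_of_irr χ.2) hd ht
  refine ⟨d, T, hd0, hd, hT, ?_⟩
  set ψ : H → ℂ := (χ : G → ℂ) ∘ jHom e with hψ
  have hgen : IsGeneralizedCharacter H ψ :=
    Char.isGeneralizedCharacter_comp (Char.isGeneralizedCharacter_of_irr χ.2) (jHom e)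
  have hcls := Char.isGeneralizedCharacter_isClassFunction hgen
  have hgen' : IsGeneralizedCharacter H fun g => (detSign g : ℂ) * ψ g :=
    Char.isGeneralizedCharacter_mul
      (Char.isGeneralizedCharacter_of_irr (Char.isIrrCharacter_monoidHom detSign)) hgen
  have h1 : ψ 1 = (d : ℂ) := by rw [hψ, Function.comp_apply, map_one, hd]
  have h2 : ψ (-1) = (T : ℂ) := by rw [hψ, Function.comp_apply, jHom_neg_one e ht, hT]
  have h3 : ψ s0 = (T : ℂ) := by
    obtain ⟨i, hi⟩ := el_surjective s0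
    have hc := isConj_of_involution e ht (i := i) (hi ▸ s0_facts.1) (hi ▸ s0_facts.2.1)
    rw [hi] at hc
    rw [hψ, Function.comp_apply,
      ← Char.isClassFunction_eq_of_isConj (Char.irr_isClassFunction χ.2) hc, hT]
  have hone : (48 : ℂ) * b = 24 * ψ g4 + 12 * ψ u0 + 12 * ψ u0⁻¹ := by
    rw [← hb, coef_sum, show (∑ i, (bOne (el i) : ℂ) * (χ : G → ℂ) (jHom e (el i))) =
      ∑ i, (bOne (el i) : ℂ) * ψ (el i) from rfl, weighted_sum hcls _ _ weights_bOne,
      Fin.sum_univ_eight]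
    simp [rep]
  have htwo : (48 : ℂ) * b' = 24 * ψ g4 - 12 * ψ u0 - 12 * ψ u0⁻¹ := by
    rw [← hb', coef_sum, show (∑ i, (bTwo (el i) : ℂ) * (χ : G → ℂ) (jHom e (el i))) =
      ∑ i, (bTwo (el i) : ℂ) * ψ (el i) from rfl, weighted_sum hcls _ _ weights_bTwo,
      Fin.sum_univ_eight]
    simp [rep]
    ring
  obtain ⟨m, hm⟩ := sylow_sum_int hgen
  obtain ⟨m', hm'⟩ := sylow_sum_int hgen'
  rw [weighted_sum hcls _ _ weights_sylow, Fin.sum_univ_eight] at hm
  rw [Finset.sum_congr rfl (g := fun i =>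
      ((if el i ∈ sylow then detInt (el i) else 0 : ℤ) : ℂ) * ψ (el i)) (fun i _ => by
        rw [detSign_eq]; split_ifs <;> push_cast <;> ring),
    weighted_sum hcls _ _ weights_sylow_det, Fin.sum_univ_eight] at hm'
  simp [rep, h1, h2, h3] at hm hm'
  have hA : (d : ℤ) + 5 * T + 10 * b + 2 * b' = 16 * m := by
    have : (((d : ℤ) + 5 * T + 10 * b + 2 * b' : ℤ) : ℂ) = ((16 * m : ℤ) : ℂ) := by
      push_cast
      linear_combination hm + (5 / 24 : ℂ) * hone + (1 / 24 : ℂ) * htwo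
    exact_mod_cast this
  have hB : (d : ℤ) - 3 * T + 2 * b + 10 * b' = 16 * m' := by
    have : (((d : ℤ) - 3 * T + 2 * b + 10 * b' : ℤ) : ℂ) = ((16 * m' : ℤ) : ℂ) := by
      push_cast
      linear_combination hm' + (1 / 24 : ℂ) * hone + (5 / 24 : ℂ) * htwo
    exact_mod_cast this
  omega

include e ht in
theorem order_eq : Nat.card G = 5616 ∨ Nat.card G = 7920 := by
  classical
  obtain ⟨b, hb, hB⟩ := exists_coef e good_bOne
  obtain ⟨b', hb', hB'⟩ := exists_coef e good_bTwo
  choose d T hd0 hd hT h16 hpar using fun χ : IrrCharacter G =>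
    char_facts e ht χ (b χ) (b' χ) (hb χ) (hb' χ)
  have hh := index_odd e ht
  set h := (centralizer ({t} : Set G)).index
  have hG : (Nat.card G : ℂ) = 48 * h := by rw [card_eq e]; push_cast; ring
  have inner : ∀ {f f' : H → ℤ}, Good f → Good f' → ∀ {c c' : IrrCharacter G → ℤ},
      (special e f = fun g => ∑ χ, (c χ : ℂ) * (χ : G → ℂ) g) →
      (∀ χ : IrrCharacter G, classInner (χ : G → ℂ) (special e f') = c' χ) →
      (48 : ℂ) * ((∑ χ, c χ * c' χ : ℤ) : ℂ) = ((∑ i, f (el i) * f' (el i) : ℤ) : ℂ) := by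
    intro f f' hf hf' c c' hc hc'
    have h1 := inner_special e ht hf hf'
    have h2 : special e f = ∑ χ : IrrCharacter G, (c χ : ℂ) • (χ : G → ℂ) := by
      rw [hc]; funext g; simp
    nth_rw 1 [h2] at h1
    rw [Char.classInner_sum_left] at h1
    simp only [Char.classInner_smul_left, hc'] at h1
    push_cast at h1 ⊢
    rw [h1]; ring
  have hbb : ∑ χ, b χ ^ 2 = 3 := by
    have h1 := inner good_bOne good_bOne hB hb
    rw [norms.1] at h1
    simp only [← pow_two] at h1
    have h2 : 48 * ∑ χ, b χ ^ 2 = 144 := by exact_mod_cast h1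
    omega
  have hbb' : ∑ χ, b' χ ^ 2 = 3 := by
    have h1 := inner good_bTwo good_bTwo hB' hb'
    rw [norms.2.1] at h1
    simp only [← pow_two] at h1
    have h2 : 48 * ∑ χ, b' χ ^ 2 = 144 := by exact_mod_cast h1
    omega
  have hcross : ∑ χ, b χ * b' χ = 1 := by
    have h1 := inner good_bOne good_bTwo hB hb'
    rw [norms.2.2.1] at h1
    have h2 : 48 * ∑ χ, b χ * b' χ = 48 := by exact_mod_cast h1
    omega
  let o : IrrCharacter G := ⟨fun _ => 1, Char.isIrrCharacter_const_one⟩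
  have hbo : b o = 1 ∧ b' o = 0 := by
    constructor
    · have h1 := coef_sum e (f := bOne) o
      rw [hb] at h1
      simp only [o, mul_one, ← Int.cast_sum, norms.2.2.2.1] at h1
      have h2 : 48 * b o = 48 := by exact_mod_cast h1
      omega
    · have h1 := coef_sum e (f := bTwo) o
      rw [hb'] at h1
      simp only [o, mul_one, ← Int.cast_sum, norms.2.2.2.2] at h1
      have h2 : 48 * b' o = 0 := by exact_mod_cast h1
      omega
  have hdo : (d o : ℤ) = 1 ∧ T o = 1 :=
    ⟨by exact_mod_cast (show ((d o : ℕ) : ℂ) = 1 from (hd o).symm),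
      by exact_mod_cast (show ((T o : ℤ) : ℂ) = 1 from (hT o).symm)⟩
  obtain ⟨y, z, v, w, hnd, hsb, hsb', hyy⟩ := exists_supports o hbb hbb' hcross hbo.1 hbo.2
  simp only [List.nodup_cons, List.mem_cons, List.not_mem_nil, List.nodup_nil, not_or,
    or_false, and_true, not_false_eq_true] at hnd
  obtain ⟨⟨hoy, hoz, hov, how⟩, ⟨hyz, hyv, hyw⟩, ⟨hzv, hzw⟩, hvw⟩ := hnd
  have sumb : ∀ F : IrrCharacter G → ℂ,
      ∑ χ, (b χ : ℂ) * F χ = F o + b y * F y + b z * F z := by
    intro F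
    rw [← Finset.sum_subset (Finset.subset_univ {o, y, z}) (fun x _ hx => by
      have : b x = 0 := by
        by_contra h
        exact hx (by simpa using (hsb x).1 h)
      rw [this, Int.cast_zero, zero_mul]),
      Finset.sum_insert (by simp [hoy, hoz]), Finset.sum_pair hyz, hbo.1, Int.cast_one, one_mul,
      add_assoc]
  have sumb' : ∀ F : IrrCharacter G → ℂ,
      ∑ χ, (b' χ : ℂ) * F χ = b y * F y + b' v * F v + b' w * F w := by
    intro F
    rw [← Finset.sum_subset (Finset.subset_univ {y, v, w}) (fun x _ hx => by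
      have : b' x = 0 := by
        by_contra h
        exact hx (by simpa using (hsb' x).1 h)
      rw [this, Int.cast_zero, zero_mul]),
      Finset.sum_insert (by simp [hyv, hyw]), Finset.sum_pair hvw, hyy, add_assoc]
  have evals : ∀ {f : H → ℤ}, Good f → ∀ {c : IrrCharacter G → ℤ},
      (special e f = fun g => ∑ χ, (c χ : ℂ) * (χ : G → ℂ) g) →
      ∑ χ, (c χ : ℂ) * (d χ : ℂ) = 0 ∧ ∑ χ, (c χ : ℂ) * (T χ : ℂ) = 0 ∧
        (h : ℂ) * ∑ χ, (c χ : ℂ) * ((T χ : ℂ) ^ 2 / (d χ : ℂ)) = 96 := by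
    intro f hf c hc
    refine ⟨?_, ?_, ?_⟩
    · have h1 := special_eq_zero e ht hf (g := 1) (mul_one 1)
      rw [hc] at h1
      simpa [hd] using h1
    · have h1 := special_eq_zero e ht hf (g := t) (t_mul_self ht)
      rw [hc] at h1
      simpa [hT] using h1
    · have h1 := sum_special_pairs e ht hf
      rw [hc, Finset.sum_comm] at h1
      simp only [← Finset.mul_sum, BlocksChar.sum_conj_mul (Subtype.prop _), hd, hT, hG] at h1
      rw [← mul_right_inj' (show (48 : ℂ) ≠ 0 by norm_num), ← mul_assoc, Finset.mul_sum]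
      refine (Finset.sum_congr rfl fun χ _ => ?_).trans (h1.trans (by norm_num))
      ring
  obtain ⟨e1, e2, e3⟩ := evals good_bOne hB
  obtain ⟨f1, f2, f3⟩ := evals good_bTwo hB'
  rw [sumb] at e1 e2 e3
  rw [sumb'] at f1 f2 f3
  have hdC : ∀ χ, (d χ : ℂ) ≠ 0 := fun χ => Nat.cast_ne_zero.2 (hd0 χ).ne'
  have h1o : (d o : ℂ) = 1 ∧ (T o : ℂ) = 1 := ⟨(hd o).symm, (hT o).symm⟩
  rw [h1o.1] at e1
  rw [h1o.2] at e2
  rw [h1o.1, h1o.2] at e3
  have sq_one : ∀ {c : IrrCharacter G → ℤ}, ∑ χ, c χ ^ 2 = 3 → ∀ χ, c χ ≠ 0 → c χ * c χ = 1 :=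
    fun hc χ hne => by rcases unit_values hc χ hne with h | h <;> rw [h] <;> norm_num
  have qy := sq_one hbb y ((hsb y).2 (by simp))
  have qz := sq_one hbb z ((hsb z).2 (by simp))
  have qv := sq_one hbb' v ((hsb' v).2 (by simp))
  have qw := sq_one hbb' w ((hsb' w).2 (by simp))
  have zero_b : ∀ x, x ≠ o → x ≠ y → x ≠ z → b x = 0 := fun x a1 a2 a3 => by
    by_contra h
    rcases (hsb x).1 h with r | r | r <;> contradiction
  have zero_b' : ∀ x, x ≠ y → x ≠ v → x ≠ w → b' x = 0 := fun x a1 a2 a3 => by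
    by_contra h
    rcases (hsb' x).1 h with r | r | r <;> contradiction
  have hzb' : b' z = 0 := zero_b' z (Ne.symm hyz) hzv hzw
  have hvb : b v = 0 := zero_b v (Ne.symm hov) (Ne.symm hyv) (Ne.symm hzv)
  have hwb : b w = 0 := zero_b w (Ne.symm how) (Ne.symm hyw) (Ne.symm hzw)
  have dv : ∀ χ c, c * c = (1 : ℤ) → ((c : ℂ) * ((T χ : ℂ) ^ 2 / d χ)) =
      ((c * T χ : ℤ) : ℂ) ^ 2 / ((c * d χ : ℤ) : ℂ) := by
    intro χ c hc
    have hcC : (c : ℂ) * c = 1 := by exact_mod_cast hc
    have hc0 : (c : ℂ) ≠ 0 := fun h => by rw [h, zero_mul] at hcC; exact zero_ne_one hcC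
    have := hdC χ
    push_cast
    field_simp
  rw [dv y _ qy, dv z _ qz] at e3
  rw [dv y _ qy, dv v _ qv, dv w _ qw] at f3
  have h5 : ∀ χ c, c * c = (1 : ℤ) → ((c * d χ : ℤ) : ℂ) ≠ 0 := fun χ c hc =>
    Int.cast_ne_zero.2 (mul_ne_zero (fun h => by simp [h] at hc) (by exact_mod_cast (hd0 χ).ne'))
  have n1 := h5 y _ qy
  have n2 := h5 z _ qz
  have n3 := h5 v _ qv
  have n4 := h5 w _ qw
  have E1 : (h : ℤ) * ((b y * d y) * (b z * d z) + (b y * T y) ^ 2 * (b z * d z) +
      (b z * T z) ^ 2 * (b y * d y)) = 96 * (b y * d y) * (b z * d z) := by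
    field_simp at e3
    apply Int.cast_injective (α := ℂ)
    push_cast at e3 ⊢
    linear_combination e3
  have E2 : (h : ℤ) * ((b y * T y) ^ 2 * (b' v * d v) * (b' w * d w) +
      (b' v * T v) ^ 2 * (b y * d y) * (b' w * d w) +
      (b' w * T w) ^ 2 * (b y * d y) * (b' v * d v)) =
      96 * (b y * d y) * (b' v * d v) * (b' w * d w) := by
    field_simp at f3
    apply Int.cast_injective (α := ℂ)
    push_cast at f3 ⊢
    linear_combination f3
  have hcol : 1 + (b y * T y) ^ 2 + (b z * T z) ^ 2 + (b' v * T v) ^ 2 + (b' w * T w) ^ 2 ≤ 48 := by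
    have hs := Char.sum_irr_mul_conj (G := G) t t
    rw [if_pos (IsConj.refl t), natCard_centralizer e] at hs
    simp only [hT, map_intCast] at hs
    have hs' : ∑ χ, T χ * T χ = 48 := by exact_mod_cast hs
    have h1 := Finset.sum_le_sum_of_subset_of_nonneg (s := {o, y, z, v, w})
      (t := (Finset.univ : Finset (IrrCharacter G))) (f := fun χ => T χ * T χ)
      (Finset.subset_univ _) (fun χ _ _ => mul_self_nonneg _)
    rw [hs', Finset.sum_insert (by simp [hoy, hoz, hov, how]),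
      Finset.sum_insert (by simp [hyz, hyv, hyw]), Finset.sum_insert (by simp [hzv, hzw]),
      Finset.sum_pair hvw, hdo.2] at h1
    simp only [mul_pow, pow_two (b y), pow_two (b z), pow_two (b' v), pow_two (b' w),
      qy, qz, qv, qw, one_mul]
    linarith
  have A1 := h16 y; have A2 := h16 v; have A3 := h16 w
  have P1 := hpar y; have P2 := hpar v; have P3 := hpar w
  rw [hyy] at A1 P1
  rw [hvb] at A2 P2
  rw [hwb] at A3 P3
  have signs : (b y = 1 ∨ b y = -1) ∧ (b' v = 1 ∨ b' v = -1) ∧ (b' w = 1 ∨ b' w = -1) :=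
    ⟨unit_values hbb y ((hsb y).2 (by simp)), unit_values hbb' v ((hsb' v).2 (by simp)),
      unit_values hbb' w ((hsb' w).2 (by simp))⟩
  have hres := order_cases (h := (h : ℤ)) (p := b y * d y) (q := b z * d z) (r := b' v * d v)
    (s := b' w * d w) (a := b y * T y) (c := b z * T z) (m := b' v * T v) (n := b' w * T w)
    (by exact_mod_cast hh) (by exact_mod_cast hh.pos)
    (by exact_mod_cast e1) (by exact_mod_cast e2) (by exact_mod_cast f1) (by exact_mod_cast f2)
    (by rw [Int.even_iff]; rcases signs.1 with s | s <;> rw [s] at P1 ⊢ <;> omega)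
    (by rw [Int.odd_iff]; rcases signs.2.1 with s | s <;> rw [s] at P2 ⊢ <;> omega)
    (by rw [Int.odd_iff]; rcases signs.2.2 with s | s <;> rw [s] at P3 ⊢ <;> omega)
    hcol
    (by rcases signs.1 with s | s <;> rw [s] at A1 ⊢ <;> omega)
    (by rcases signs.2.1 with s | s <;> rw [s] at A2 ⊢ <;> omega)
    (by rcases signs.2.2 with s | s <;> rw [s] at A3 ⊢ <;> omega)
    E1 E2
  rw [card_eq e]
  show 48 * h = 5616 ∨ 48 * h = 7920
  omega

end Cfsg.Agent.GLTwoThree
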