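import Cfsg.Agent.GLTwoThree.Parabolic
import Mathlib.GroupTheory.GroupAction.Quotient
import Mathlib.Data.Fintype.BigOperators

/-!
# The projective plane on the cosets of the parabolic subgroup
-/

set_option autoImplicit false
set_option linter.unusedSectionVars false
set_option linter.style.haveILetI false

noncomputable section

namespace Cfsg.Agent.GLTwoThree.Plane

open Subgroup

universe u

variable {G : Type u} [Group G] [Finite G]

/-- The properties of `Q` used to build the plane. -/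
structure IsParabolic (Q : Subgroup G) : Prop where
  cardG : Nat.card G = 5616
  cardQ : Nat.card Q = 9
  expQ : ∀ g ∈ Q, g ^ 3 = 1
  centQ : centralizer (Q : Set G) ≤ Q
  cardN : Nat.card (normalizer (Q : Set G)) = 432
  trans : ∀ a ∈ Q, ∀ b ∈ Q, a ≠ 1 → b ≠ 1 → ∃ g ∈ normalizer (Q : Set G), g * a * g⁻¹ = b

/-- The points. -/
abbrev Pts (Q : Subgroup G) : Type u := G ⧸ normalizer (Q : Set G)

variable {Q : Subgroup G}

/-- `y` lies in the conjugate of `Q` attached to `p`. -/
def InQ (p : Pts Q) (y : G) : Prop := ∃ g : G, (g : Pts Q) = p ∧ g⁻¹ * y * g ∈ Q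

/-- The base point. -/
abbrev base (Q : Subgroup G) : Pts Q := ((1 : G) : Pts Q)

theorem inQ_mk (g y : G) : InQ ((g : G) : Pts Q) y ↔ g⁻¹ * y * g ∈ Q := by
  refine ⟨?_, fun h => ⟨g, rfl, h⟩⟩
  rintro ⟨a, ha, hy⟩
  have hn := Subgroup.mem_normalizer_iff.1 (QuotientGroup.eq.1 ha.symm)
  have h := (hn (a⁻¹ * y * a)).1 hy
  rwa [show g⁻¹ * a * (a⁻¹ * y * a) * (g⁻¹ * a)⁻¹ = g⁻¹ * y * g by group] at h

theorem inQ_smul (g : G) (p : Pts Q) (y : G) : InQ (g • p) (g * y * g⁻¹) ↔ InQ p y := by
  induction p using QuotientGroup.induction_on with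
  | H a =>
    rw [MulAction.Quotient.smul_coe, inQ_mk, inQ_mk, smul_eq_mul,
      show (g * a)⁻¹ * (g * y * g⁻¹) * (g * a) = a⁻¹ * y * a by group]

theorem inQ_base (y : G) : InQ (base Q) y ↔ y ∈ Q := by
  rw [inQ_mk, inv_one, one_mul, mul_one]

theorem smul_base_iff {g : G} : g • base Q = base Q ↔ g ∈ normalizer (Q : Set G) := by
  rw [base, MulAction.Quotient.smul_coe, smul_eq_mul, mul_one, QuotientGroup.eq, mul_one]
  exact inv_mem_iff

theorem smul_mk_base (g : G) : g • base Q = (g : Pts Q) := by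
  rw [base, MulAction.Quotient.smul_coe, smul_eq_mul, mul_one]

theorem inQ_fix {p : Pts Q} {y : G} (h : InQ p y) : y • p = p := by
  obtain ⟨g, rfl, hg⟩ := h
  rw [← smul_mk_base, ← mul_smul, show y * g = g * (g⁻¹ * y * g) by group, mul_smul,
    smul_base_iff.2 (le_normalizer hg)]

theorem inQ_one (p : Pts Q) : InQ p (1 : G) := by
  induction p using QuotientGroup.induction_on with
  | H a => rw [inQ_mk, mul_one, inv_mul_cancel]; exact one_mem Q

/-- The number of fixed points. -/
def fixCount (Q : Subgroup G) (y : G) : ℕ := Nat.card {r : Pts Q // y • r = r}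

theorem fixCount_conj (g y : G) : fixCount Q (g * y * g⁻¹) = fixCount Q y :=
  (Nat.card_congr ((MulAction.toPerm (α := G) (β := Pts Q) g).subtypeEquiv fun r => by
    show y • r = r ↔ (g * y * g⁻¹) • (g • r) = g • r
    rw [← mul_smul, inv_mul_cancel_right, mul_smul]
    exact (smul_left_cancel_iff g).symm)).symm

theorem fix_of_mem_zpowers {α : Type*} [MulAction G α] {a b : G} {r : α} (h : b • r = r)
    (ha : a ∈ zpowers b) : a • r = r :=
  (zpowers_le.2 (show b ∈ MulAction.stabilizer G r from h)) ha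

theorem mem_zpowers_symm [IsSimpleGroup G] {a b : G} (hb : orderOf b = 3) (ha : a ∈ zpowers b) (ha1 : a ≠ 1) :
    b ∈ zpowers a := by
  rcases three_pow_cases hb ha with h | h | h
  · exact absurd h ha1
  · rw [h]; exact mem_zpowers b
  · rw [h, zpowers_inv]; exact mem_zpowers b

variable (h : IsParabolic Q)

include h

theorem card_pts : Nat.card (Pts Q) = 13 := by
  have h1 := (normalizer (Q : Set G)).card_mul_index
  rw [h.cardG, h.cardN] at h1
  rw [← Subgroup.index_eq_card]
  omega

theorem order_three {y : G} (hy : y ∈ Q) (hy1 : y ≠ 1) : orderOf y = 3 := by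
  haveI : Fact (Nat.Prime 3) := ⟨Nat.prime_three⟩
  exact orderOf_eq_prime (h.expQ y hy) hy1

theorem order_three' {p : Pts Q} {y : G} (hy : InQ p y) (hy1 : y ≠ 1) : orderOf y = 3 := by
  obtain ⟨g, -, hg⟩ := hy
  have h1 : g⁻¹ * y * g = MulAut.conj g⁻¹ y := by simp
  rw [← MulEquiv.orderOf_eq (MulAut.conj g⁻¹) y, ← h1]
  refine order_three h hg fun he => hy1 ?_
  calc y = g * (g⁻¹ * y * g) * g⁻¹ := by group
    _ = 1 := by rw [he]; group

theorem smul_faithful [IsSimpleGroup G] {y : G} (hy : ∀ r : Pts Q, y • r = r) : y = 1 := by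
  have hne : normalizer (Q : Set G) ≠ ⊤ := fun he => by
    have := h.cardN
    rw [he, Subgroup.card_top, h.cardG] at this
    omega
  exact Invol.toPermHom_injective_of_simple hne
    ((Equiv.ext fun r => hy r).trans (map_one _).symm)

theorem fix_four [IsSimpleGroup G] {x : G} (hx : x ∈ Q) (hx1 : x ≠ 1) : fixCount Q x = 4 := by
  classical
  letI := Fintype.ofFinite G
  letI : Fintype Q := Fintype.ofFinite _
  letI : Fintype (Pts Q) := Fintype.ofFinite _
  letI : Fintype (MulAction.orbitRel.Quotient Q (Pts Q)) := Fintype.ofFinite _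
  have hB := MulAction.sum_card_fixedBy_eq_card_orbits_mul_card_group Q (Pts Q)
  have hfix : ∀ y : Q, Fintype.card (MulAction.fixedBy (Pts Q) y) = fixCount Q (y : G) := fun y => by
    rw [← Nat.card_eq_fintype_card]; rfl
  have hval : ∀ y : Q, fixCount Q (y : G) = if y = 1 then 13 else fixCount Q x := by
    intro y
    by_cases hy : y = 1
    · rw [if_pos hy, hy, ← card_pts h]
      exact Nat.card_congr (Equiv.subtypeUnivEquiv fun r => one_smul G r)
    · rw [if_neg hy]
      obtain ⟨g, -, hg⟩ := h.trans x hx y y.2 hx1 fun hc => hy (Subtype.ext hc)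
      rw [← hg, fixCount_conj]
  rw [Finset.sum_congr rfl fun y _ => (hfix y).trans (hval y),
    ← Finset.add_sum_erase _ _ (Finset.mem_univ (1 : Q)), if_pos rfl,
    Finset.sum_congr rfl fun y hy => if_neg (Finset.ne_of_mem_erase hy), Finset.sum_const,
    Finset.card_erase_of_mem (Finset.mem_univ _), Finset.card_univ, smul_eq_mul,
    ← Nat.card_eq_fintype_card (α := Q), h.cardQ] at hB
  have hle : fixCount Q x ≤ 13 := by
    rw [← card_pts h]
    exact Nat.card_le_card_of_injective _ Subtype.val_injective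
  have hne : fixCount Q x ≠ 13 := by
    intro he
    refine hx1 (smul_faithful h fun r => ?_)
    obtain ⟨s, hs⟩ := (Nat.bijective_iff_injective_and_card
      (Subtype.val : {r : Pts Q // x • r = r} → Pts Q)).2
        ⟨Subtype.val_injective, he.trans (card_pts h).symm⟩ |>.2 r
    rw [← hs]
    exact s.2
  omega

theorem index_three_le {R : Subgroup G} (hQR : Q ≤ R) (hR : Nat.card R = 27) :
    R ≤ normalizer (Q : Set G) := by
  intro g hg
  haveI hn : (Q.subgroupOf R).Normal := by
    refine Subgroup.normal_of_index_eq_minFac_card ?_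
    have h1 := (Q.subgroupOf R).card_mul_index
    rw [Nat.card_congr (Subgroup.subgroupOfEquivOfLe hQR).toEquiv, h.cardQ, hR] at h1
    rw [hR, show Nat.minFac 27 = 3 by norm_num]
    omega
  exact mem_normalizer_fintype fun q hq => hn.conj_mem ⟨q, hQR hq⟩ hq ⟨g, hg⟩

theorem normalizer_not_large {R : Subgroup G} (hR : Nat.card R = 27) (hQR : Q ≤ R)
    {L : Subgroup G} (hLM : L ≤ normalizer (Q : Set G)) (hLR : L ≤ normalizer (R : Set G)) :
    Nat.card L ≤ 108 := by
  haveI : Fact (Nat.Prime 3) := ⟨Nat.prime_three⟩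
  set M := normalizer (Q : Set G) with hM
  have hRM : R ≤ M := index_three_le h hQR hR
  obtain ⟨P, hP⟩ := (IsPGroup.of_card (show Nat.card (R.subgroupOf M) = 3 ^ 3 by
    rw [Nat.card_congr (Subgroup.subgroupOfEquivOfLe hRM).toEquiv, hR]; rfl)).exists_le_sylow
    (p := 3)
  have hPR : R.subgroupOf M = (P : Subgroup M) := Subgroup.eq_of_le_of_card_ge hP (by
    rw [Nat.card_congr (Subgroup.subgroupOfEquivOfLe hRM).toEquiv, hR]
    obtain ⟨j, hj⟩ := IsPGroup.iff_card.1 P.2
    have h1 : 3 ^ j ∣ 432 := h.cardN ▸ hj ▸ Subgroup.card_subgroup_dvd_card _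
    rw [hj]
    rcases (show j ≤ 3 ∨ 4 ≤ j by omega) with h' | h'
    · exact (Nat.pow_le_pow_right (by norm_num) h').trans (by norm_num)
    · exact absurd ((pow_dvd_pow 3 h').trans h1) (by norm_num))
  have hle : Nat.card L ≤ Nat.card (normalizer ((P : Subgroup M) : Set M)) := by
    rw [← Nat.card_congr (Subgroup.subgroupOfEquivOfLe hLM).toEquiv]
    refine Nat.le_of_dvd Nat.card_pos (Subgroup.card_dvd_of_le fun g hg => ?_)
    refine mem_normalizer_fintype fun a ha => ?_
    have ha' : (a : G) ∈ R := mem_subgroupOf.1 (hPR.symm ▸ ha)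
    exact hPR ▸ (mem_subgroupOf.2 ((Subgroup.mem_normalizer_iff.1 (hLR hg) _).1 ha'))
  have hn : 4 ≤ Nat.card (Sylow 3 M) := by
    have h1 : Nat.card (Sylow 3 M) % 3 = 1 := card_sylow_modEq_one 3 M
    by_contra hlt
    have h2 : Nat.card (Sylow 3 M) = 1 := by
      have h3 : 0 < Nat.card (Sylow 3 M) := Nat.card_pos
      omega
    haveI := (Nat.card_eq_one_iff_unique.1 h2).1
    haveI hPn : (P : Subgroup M).Normal := P.normal_of_subsingleton
    haveI hRp : IsPGroup 3 R := IsPGroup.of_card (n := 3) hR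
    haveI : Nontrivial R := Finite.one_lt_card_iff_nontrivial.1 (by omega)
    haveI := hRp.center_nontrivial
    obtain ⟨z, hz, hz1⟩ := (Subgroup.nontrivial_iff_exists_ne_one _).1
      (inferInstance : Nontrivial (Subgroup.center R))
    have hzc : ∀ r ∈ R, r * (z : G) = (z : G) * r := fun r hr =>
      congrArg Subtype.val (Subgroup.mem_center_iff.1 hz ⟨r, hr⟩)
    have hzQ : (z : G) ∈ Q := h.centQ (mem_centralizer_iff.2 fun q hq => hzc q (hQR hq))
    have hQc : R ≤ centralizer (Q : Set G) := by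
      intro r hr
      refine mem_centralizer_iff.2 fun q hq => ?_
      rcases eq_or_ne q 1 with rfl | hq1
      · rw [one_mul, mul_one]
      obtain ⟨g, hg, rfl⟩ := h.trans (z : G) hzQ q hq (fun hc => hz1 (Subtype.ext hc)) hq1
      have hgr : g⁻¹ * r * g ∈ R := by
        have h3 := hPn.conj_mem ⟨r, hRM hr⟩ (hPR ▸ mem_subgroupOf.2 hr) (⟨g, hg⟩ : M)⁻¹
        rw [← hPR, mem_subgroupOf] at h3
        simpa using h3
      have h4 := hzc _ hgr
      calc g * (z : G) * g⁻¹ * r = g * ((z : G) * (g⁻¹ * r * g)) * g⁻¹ := by group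
        _ = g * ((g⁻¹ * r * g) * z) * g⁻¹ := by rw [h4]
        _ = r * (g * (z : G) * g⁻¹) := by group
    have := Nat.le_of_dvd Nat.card_pos (Subgroup.card_dvd_of_le (hQc.trans h.centQ))
    rw [hR, h.cardQ] at this
    omega
  have hprod : Nat.card (Sylow 3 M) * Nat.card (normalizer ((P : Subgroup M) : Set M)) = 432 := by
    rw [P.card_eq_index_normalizer, ← h.cardN]
    exact Subgroup.index_mul_card _
  nlinarith [Nat.mul_le_mul_right (Nat.card (normalizer ((P : Subgroup M) : Set M))) hn]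

theorem fixed_eq_base [IsSimpleGroup G] {q : Pts Q} (hq : ∀ y ∈ Q, y • q = q) : q = base Q := by
  by_contra hne
  haveI : Fact (Nat.Prime 3) := ⟨Nat.prime_three⟩
  set M := normalizer (Q : Set G) with hM
  obtain ⟨g, rfl⟩ := QuotientGroup.mk_surjective q
  set Q' := Q.map (MulAut.conj g).toMonoidHom with hQ'
  set L := M ⊓ MulAction.stabilizer G ((g : G) : Pts Q) with hL
  obtain ⟨x, hx, hx1⟩ := Signalizer.exists_ne_one_of_le_card (A := Q) (by rw [h.cardQ]; norm_num)
  -- the orbit of `q` under `M` lies in the fixed points of `Q`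
  have horb : MulAction.orbit M ((g : G) : Pts Q) ⊆
      {r : Pts Q | x • r = r} \ {base Q} := by
    rintro _ ⟨m, rfl⟩
    refine ⟨?_, fun hc => hne ?_⟩
    · show x • (m : G) • ((g : G) : Pts Q) = (m : G) • ((g : G) : Pts Q)
      rw [← mul_smul, show x * (m : G) = (m : G) * ((m : G)⁻¹ * x * m) by group, mul_smul,
        hq _ ((Subgroup.mem_normalizer_iff''.1 m.2 x).1 hx)]
    · have hc' : (m : G) • ((g : G) : Pts Q) = base Q := hc
      rw [← smul_base_iff.2 (inv_mem m.2), ← hc', inv_smul_smul]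
  have h3 : (MulAction.orbit M ((g : G) : Pts Q)).ncard ≤ 3 := by
    refine (Set.ncard_le_ncard horb (Set.toFinite _)).trans ?_
    have h4 : ({r : Pts Q | x • r = r}).ncard = 4 := fix_four h hx hx1
    rw [Set.ncard_sdiff_singleton_of_mem
      (show base Q ∈ {r : Pts Q | x • r = r} from smul_base_iff.2 (le_normalizer hx)), h4]
  have hLcard : 144 ≤ Nat.card L := by
    have h1 := (MulAction.stabilizer M ((g : G) : Pts Q)).card_mul_index
    rw [MulAction.index_stabilizer, h.cardN] at h1
    have h2 : MulAction.stabilizer M ((g : G) : Pts Q) = L.subgroupOf M := by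
      ext a
      rw [MulAction.mem_stabilizer_iff, mem_subgroupOf, Subgroup.mem_inf,
        MulAction.mem_stabilizer_iff]
      exact ⟨fun h => ⟨a.2, h⟩, fun h => h.2⟩
    rw [h2, Nat.card_congr (Subgroup.subgroupOfEquivOfLe (inf_le_left : L ≤ M)).toEquiv] at h1
    nlinarith [Nat.mul_le_mul_left (Nat.card L) h3]
  have hgN : ∀ a, a • ((g : G) : Pts Q) = ((g : G) : Pts Q) → a ∈ normalizer (Q' : Set G) := by
    intro a ha
    rw [MulAction.Quotient.smul_coe, smul_eq_mul, QuotientGroup.eq] at ha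
    have hb : g⁻¹ * a * g ∈ M := by
      have h1 := inv_mem ha
      rwa [show ((a * g)⁻¹ * g)⁻¹ = g⁻¹ * a * g by group] at h1
    refine mem_normalizer_fintype ?_
    rintro _ ⟨y, hy, rfl⟩
    refine ⟨g⁻¹ * a * g * y * (g⁻¹ * a * g)⁻¹, (Subgroup.mem_normalizer_iff.1 hb y).1 hy, ?_⟩
    simp only [MulEquiv.coe_toMonoidHom, MulAut.conj_apply]
    group
  have hQQ' : Q ≤ normalizer (Q' : Set G) := fun y hy => hgN y (hq y hy)
  set R := Q ⊔ Q' with hR
  have hQp : IsPGroup 3 Q := IsPGroup.of_card (n := 2) h.cardQ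
  have hRp : IsPGroup 3 R :=
    IsPGroup.to_sup_of_normal_right' hQp (hQp.map _) hQQ'
  have hQ'c : Nat.card Q' = 9 := by
    rw [← h.cardQ]
    exact (Nat.card_congr (Subgroup.equivMapOfInjective Q _ (MulAut.conj g).injective).toEquiv).symm
  have hRc : Nat.card R = 27 := by
    obtain ⟨j, hj⟩ := IsPGroup.iff_card.1 hRp
    have h1 : 3 ^ j ∣ 5616 := h.cardG ▸ hj ▸ Subgroup.card_subgroup_dvd_card _
    have hlt : 9 < 3 ^ j := by
      rw [← hj, ← h.cardQ]
      refine lt_of_le_of_ne (Nat.le_of_dvd Nat.card_pos (Subgroup.card_dvd_of_le le_sup_left))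
        fun he => ?_
      have hQR : Q = R := Subgroup.eq_of_le_of_card_ge le_sup_left he.ge
      have heq : Q' = Q := Subgroup.eq_of_le_of_card_ge (le_sup_right.trans hQR.ge)
        (by rw [hQ'c, h.cardQ])
      refine hne (Eq.trans ?_ (smul_base_iff.2 (?_ : g ∈ M)))
      · exact (smul_mk_base g).symm
      · refine mem_normalizer_fintype fun y hy => ?_
        exact heq ▸ Subgroup.mem_map_of_mem _ hy
    rw [hj]
    rcases (show j ≤ 2 ∨ j = 3 ∨ 4 ≤ j by omega) with h' | rfl | h'
    · have : 3 ^ j ≤ 3 ^ 2 := Nat.pow_le_pow_right (by norm_num) h'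
      omega
    · norm_num
    · exact absurd ((pow_dvd_pow 3 h').trans h1) (by norm_num)
  have hLR : L ≤ normalizer (R : Set G) := le_trans (le_inf inf_le_left fun a ha =>
    hgN a ha.2) (Subgroup.normalizer_inf_normalizer_le_normalizer_sup ..)
  have hsmall : Nat.card L ≤ 108 :=
    normalizer_not_large h hRc le_sup_left (inf_le_left : L ≤ M) hLR
  omega

theorem exists_gen_base [IsSimpleGroup G] {q : Pts Q} (hq : q ≠ base Q) :
    ∃ y ∈ Q, y ≠ 1 ∧ y • q = q ∧ ∀ z ∈ Q, z • q = q → z ∈ zpowers y := by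
  classical
  haveI : Fact (Nat.Prime 3) := ⟨Nat.prime_three⟩
  letI := Fintype.ofFinite G
  letI : Fintype Q := Fintype.ofFinite _
  letI : Fintype (Pts Q) := Fintype.ofFinite _
  set s : Pts Q → Finset Q := fun r =>
    (Finset.univ.erase (1 : Q)).filter fun y => (y : G) • r = r with hs
  set T := (Finset.univ : Finset (Pts Q)).erase (base Q) with hT
  set S : Pts Q → Subgroup G := fun r => Q ⊓ MulAction.stabilizer G r with hS
  have hScard : ∀ r ∈ T, Nat.card (S r) ≤ 3 := by
    intro r hr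
    have hd : Nat.card (S r) ∣ 3 ^ 2 :=
      (show (3 : ℕ) ^ 2 = Nat.card Q by rw [h.cardQ]; rfl) ▸ Subgroup.card_dvd_of_le inf_le_left
    obtain ⟨j, hj, hj'⟩ := (Nat.dvd_prime_pow Nat.prime_three).1 hd
    rw [hj']
    interval_cases j
    · norm_num
    · norm_num
    · exfalso
      have hSQ : S r = Q := Subgroup.eq_of_le_of_card_ge inf_le_left (by rw [hj', h.cardQ]; rfl)
      exact (Finset.mem_erase.1 hr).1 (fixed_eq_base h fun y hy =>
        (show y ∈ S r from hSQ.symm ▸ hy).2)
  have hsS : ∀ r, (s r).card + 1 = Nat.card (S r) := by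
    intro r
    have h1 : (s r).card + 1 =
        (Finset.univ.filter fun y : Q => (y : G) • r = r).card := by
      rw [hs]
      simp only [Finset.filter_erase]
      refine Finset.card_erase_add_one (Finset.mem_filter.2 ⟨Finset.mem_univ _, ?_⟩)
      exact one_smul G r
    rw [h1, ← Fintype.card_subtype, ← Nat.card_eq_fintype_card]
    exact Nat.card_congr
      { toFun := fun y => ⟨y.1, y.1.2, y.2⟩
        invFun := fun y => ⟨⟨y.1, y.2.1⟩, y.2.2⟩
        left_inv := fun _ => rfl
        right_inv := fun _ => rfl }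
  have hle : ∀ r ∈ T, (s r).card ≤ 2 := fun r hr => by
    have := hScard r hr
    have := hsS r
    omega
  have hsum : ∑ r ∈ T, (s r).card = ∑ r ∈ T, 2 := by
    have h1 : ∀ y ∈ (Finset.univ.erase (1 : Q)), (T.filter fun r => (y : G) • r = r).card = 3 := by
      intro y hy
      have h4 := fix_four h y.2 fun hc => Finset.ne_of_mem_erase hy (Subtype.ext hc)
      rw [fixCount, Nat.card_eq_fintype_card, Fintype.card_subtype] at h4
      have hb : base Q ∈ Finset.univ.filter fun r => (y : G) • r = r :=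
        Finset.mem_filter.2 ⟨Finset.mem_univ _, smul_base_iff.2 (le_normalizer y.2)⟩
      rw [hT, Finset.filter_erase, Finset.card_erase_of_mem hb, h4]
    simp only [hs, Finset.card_filter] at h1 ⊢
    rw [Finset.sum_comm, Finset.sum_congr rfl h1, Finset.sum_const, Finset.sum_const,
      Finset.card_erase_of_mem (Finset.mem_univ _), hT,
      Finset.card_erase_of_mem (Finset.mem_univ _), Finset.card_univ, Finset.card_univ,
      ← Nat.card_eq_fintype_card, ← Nat.card_eq_fintype_card, h.cardQ, card_pts h]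
    rfl
  have hq2 := (Finset.sum_eq_sum_iff_of_le hle).1 hsum q
    (Finset.mem_erase.2 ⟨hq, Finset.mem_univ _⟩)
  obtain ⟨y, hy⟩ := Finset.card_pos.1 (show 0 < (s q).card by omega)
  rw [hs] at hy
  simp only [Finset.mem_filter, Finset.mem_erase] at hy
  have hy1 : (y : G) ≠ 1 := fun hc => hy.1.1 (Subtype.ext hc)
  refine ⟨y, y.2, hy1, hy.2, fun z hz hzq => ?_⟩
  have heq : zpowers (y : G) = S q := Subgroup.eq_of_le_of_card_ge
    (zpowers_le.2 ⟨y.2, hy.2⟩) (by
      rw [Nat.card_zpowers, order_three h y.2 hy1]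
      have := hsS q
      omega)
  exact heq ▸ ⟨hz, hzq⟩

theorem exists_gen [IsSimpleGroup G] {p q : Pts Q} (hpq : q ≠ p) :
    ∃ y, InQ p y ∧ y ≠ 1 ∧ y • q = q ∧ fixCount Q y = 4 ∧
      ∀ z, InQ p z → z • q = q → z ∈ zpowers y := by
  obtain ⟨g, rfl⟩ := QuotientGroup.mk_surjective p
  obtain ⟨y, hy, hy1, hyq, hyz⟩ := exists_gen_base h (q := g⁻¹ • q) fun he => hpq (by
    rw [← smul_mk_base, ← he, smul_inv_smul])
  refine ⟨g * y * g⁻¹, ?_, fun hc => hy1 (conj_eq_one_iff.1 hc), ?_, ?_, fun z hz hzq => ?_⟩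
  · rw [← smul_mk_base, inQ_smul, inQ_base]; exact hy
  · rw [mul_smul, mul_smul, hyq, smul_inv_smul]
  · rw [fixCount_conj]; exact fix_four h hy hy1
  · rw [← smul_mk_base, show z = g * (g⁻¹ * z * g) * g⁻¹ by group, inQ_smul, inQ_base] at hz
    obtain ⟨n, hn⟩ := Subgroup.mem_zpowers_iff.1
      (hyz _ hz (by rw [mul_smul, mul_smul, smul_inv_smul, hzq]))
    exact Subgroup.mem_zpowers_iff.2 ⟨n, by rw [conj_zpow, hn]; group⟩

omit h in
/-- The line through two points. -/
def line (p q : Pts Q) : Set (Pts Q) := {r | ∀ y, InQ p y → y • q = q → y • r = r}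

omit h in
theorem smul_mem_line (g : G) (p q r : Pts Q) :
    g • r ∈ line (g • p) (g • q) ↔ r ∈ line p q := by
  constructor
  · intro hr y hy hyq
    have := hr (g * y * g⁻¹) ((inQ_smul g p y).2 hy) (by
      rw [mul_smul, mul_smul, inv_smul_smul, hyq])
    rw [mul_smul, mul_smul, inv_smul_smul] at this
    exact smul_left_cancel g this
  · intro hr y hy hyq
    have hy' : InQ p (g⁻¹ * y * g) := (inQ_smul g p _).1 (by
      rwa [show g * (g⁻¹ * y * g) * g⁻¹ = y by group])
    have := hr _ hy' (by rw [mul_smul, mul_smul, hyq, inv_smul_smul])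
    rw [mul_smul, mul_smul, inv_smul_eq_iff] at this
    exact this

omit h in
theorem left_mem_line (p q : Pts Q) : p ∈ line p q := fun _ hy _ => inQ_fix hy

omit h in
theorem right_mem_line (p q : Pts Q) : q ∈ line p q := fun _ _ hyq => hyq

theorem line_eq [IsSimpleGroup G] {p q : Pts Q} {y : G} (hy : InQ p y) (hyq : y • q = q)
    (hyz : ∀ z, InQ p z → z • q = q → z ∈ zpowers y) : line p q = {r | y • r = r} :=
  Set.ext fun _ => ⟨fun hr => hr y hy hyq, fun hr z hz hzq => fix_of_mem_zpowers hr (hyz z hz hzq)⟩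

theorem line_ncard [IsSimpleGroup G] {p q : Pts Q} (hpq : q ≠ p) : (line p q).ncard = 4 := by
  obtain ⟨y, hy, -, hyq, h4, hyz⟩ := exists_gen h hpq
  rw [line_eq h hy hyq hyz]
  exact h4

theorem line_eq_of_mem [IsSimpleGroup G] {p q r : Pts Q} (hpq : q ≠ p) (hrp : r ≠ p)
    (hr : r ∈ line p q) : line p r = line p q := by
  obtain ⟨y, hy, hy1, hyq, -, hyz⟩ := exists_gen h hpq
  obtain ⟨z, hz, hz1, hzr, -, hzz⟩ := exists_gen h hrp
  have h1 : y ∈ zpowers z := hzz y hy (hr y hy hyq)
  have h2 : z ∈ zpowers y := mem_zpowers_symm (order_three' h hz hz1) h1 hy1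
  rw [line_eq h hz hzr hzz, line_eq h hy hyq hyz]
  exact Set.ext fun s => ⟨fun hs => fix_of_mem_zpowers hs h1, fun hs => fix_of_mem_zpowers hs h2⟩

theorem line_comm [IsSimpleGroup G] {p q : Pts Q} (hpq : q ≠ p) : line q p = line p q := by
  obtain ⟨y, hy, hy1, hyq, h4, hyz⟩ := exists_gen h hpq
  obtain ⟨z, hz, hz1, hzp, h4', hzz⟩ := exists_gen h hpq.symm
  have hzo := order_three' h hz hz1
  have hzq : z • q = q := inQ_fix hz
  have hyp : y • p = p := inQ_fix hy
  have hz3 : z ^ 3 = 1 := orderOf_dvd_iff_pow_eq_one.1 (dvd_of_eq hzo)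
  have hcomm : Commute z y := by
    have hmem : z * y * z⁻¹ ∈ zpowers y := hyz _ (by
      have := (inQ_smul z p y).2 hy
      rwa [hzp] at this) (by
      rw [mul_smul, mul_smul, inv_smul_eq_iff.2 hzq.symm, hyq, hzq])
    rcases three_pow_cases (order_three' h hy hy1) hmem with hc | hc | hc
    · exact absurd (conj_eq_one_iff.1 hc) hy1
    · exact mul_inv_eq_iff_eq_mul.1 hc
    · exfalso
      have e2 : z * (z * y * z⁻¹) * z⁻¹ = y := by rw [hc, ← conj_inv, hc, inv_inv]
      have e3 : z ^ 3 * y * (z ^ 3)⁻¹ = z * (z * (z * y * z⁻¹) * z⁻¹) * z⁻¹ := by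
        simp only [pow_succ, pow_zero]; group
      rw [e2, hc, hz3, one_mul, inv_one, mul_one] at e3
      exact ne_inv_of_order_three (order_three' h hy hy1) e3
  rw [line_eq h hy hyq hyz, line_eq h hz hzp hzz]
  refine (Set.eq_of_subset_of_ncard_le ?_ (le_of_eq (h4'.trans h4.symm)) (Set.toFinite _)).symm
  set F : Set (Pts Q) := {r | y • r = r} with hF
  intro r hr
  have hperm : ∀ s ∈ F, z • s ∈ F := fun s hs => by
    show y • z • s = z • s
    rw [← mul_smul, ← hcomm.eq, mul_smul, show y • s = s from hs]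
  by_cases hrp : r = p
  · rw [hrp]; exact hzp
  by_cases hrq : r = q
  · rw [hrq]; exact hzq
  have h2 : (F \ {p, q}).ncard = 2 := by
    have hsub : ({p, q} : Set (Pts Q)) ⊆ F := by
      rintro a (rfl | rfl)
      · exact hyp
      · exact hyq
    rw [Set.ncard_sdiff hsub (Set.toFinite _), Set.ncard_pair hpq.symm]
    exact congrArg (fun n => n - 2) h4
  have hstep : ∀ s ∈ F \ {p, q}, z • s ∈ F \ {p, q} := by
    rintro s ⟨hs, hsn⟩
    refine ⟨hperm s hs, ?_⟩
    rintro (hc | hc)
    · exact hsn (Or.inl (smul_left_cancel z (hc.trans hzp.symm)))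
    · exact hsn (Or.inr (smul_left_cancel z ((show z • s = q from hc).trans hzq.symm)))
  obtain ⟨a, b, hab, hset⟩ := Set.ncard_eq_two.1 h2
  have hrF : r ∈ F \ {p, q} := ⟨hr, by rintro (hc | hc); exacts [hrp hc, hrq hc]⟩
  have h1' := hstep r hrF
  have h2' := hstep _ h1'
  have h3' : z • z • z • r = r := by
    rw [← mul_smul, ← mul_smul, show z * z * z = z ^ 3 by simp only [pow_succ, pow_zero]; group,
      hz3, one_smul]
  rw [hset] at hrF h1' h2'
  show z • r = r
  rcases hrF with rfl | hrb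
  · rcases h1' with hc | hc
    · exact hc
    · rcases h2' with hd | hd
      · rw [hd] at h3'; exact h3'
      · exact smul_left_cancel z (hd.trans hc.symm)
  · have hrb' : r = b := hrb
    subst hrb'
    rcases h1' with hc | hc
    · rcases h2' with hd | hd
      · exact smul_left_cancel z (hd.trans hc.symm)
      · rw [show z • z • r = r from hd] at h3'; exact h3'
    · exact hc

end Cfsg.Agent.GLTwoThree.Plane
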