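import Cfsg.Agent.GLTwoThree.Setup
import Cfsg.Prelude.Def_Transfer

/-!
# Simplicity from `O² (G) = G` and an involution centralizer `GL (2, 3)`
-/

set_option autoImplicit false
set_option linter.unusedSectionVars false
set_option linter.style.haveILetI false

noncomputable section

namespace Cfsg.Agent.GLTwoThree

open Subgroup

universe u

theorem odd_normal_trivial_aux : ∀ i, el i * el i * el i = 1 → el i ≠ 1 →
    ∃ k, ¬ (el k * el i * (el k)⁻¹ * el i * (el k * el i * (el k)⁻¹ * el i) *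
      (el k * el i * (el k)⁻¹ * el i) = 1) := by decide +kernel

theorem neg_s0_facts : (-s0) * (-s0) = 1 ∧ -s0 ≠ 1 ∧ (-1 : H) * s0 = -s0 ∧
    s0 * (-1) = -s0 := by decide +kernel

theorem involution_generation : ∀ k, ∃ a, el a * el a = 1 ∧ ∃ b, el b * el b = 1 ∧
    (el k * el a * el b) * (el k * el a * el b) = 1 := by decide +kernel

theorem center_sylow_eq : ∀ i, el i ∈ sylow → (∀ k, el k ∈ sylow → el k * el i = el i * el k) →
    el i = 1 ∨ el i = -1 := by decide +kernel

variable {G : Type u} [Group G] [Finite G] {t : G} (e : centralizer ({t} : Set G) ≃* H)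
  (ht : orderOf t = 2)

include e ht in
/-- Every involution is conjugate to `t`. -/
theorem isConj_involution (hno : ∀ M : Subgroup G, M.Normal → M.index ≠ 2) {x : G}
    (hx : orderOf x = 2) : IsConj t x := by
  haveI : Fact (Nat.Prime 2) := ⟨Nat.prime_two⟩
  obtain ⟨Q, hQ⟩ := (IsPGroup.of_card (show Nat.card (zpowers x) = 2 ^ 1 by
    rw [Nat.card_zpowers, hx]; rfl)).exists_le_sylow (p := 2)
  obtain ⟨P, hP⟩ := (IsPGroup.of_card (show Nat.card (sylowG e) = 2 ^ 4 by
    rw [card_sylowG]; rfl)).exists_le_sylow (p := 2)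
  have hPC : (P : Subgroup G) ≤ centralizer ({t} : Set G) := by
    have hPS : sylowG e = (P : Subgroup G) := by
      refine Subgroup.eq_of_le_of_card_ge hP ?_
      obtain ⟨k, hk⟩ := IsPGroup.iff_card.1 P.2
      rw [card_sylowG, hk]
      by_contra hlt
      have hk5 : 5 ≤ k := by
        by_contra h5
        have h16 : 2 ^ k ≤ 2 ^ 4 := Nat.pow_le_pow_right (by norm_num) (by omega)
        omega
      have h32 : 2 ^ 5 ∣ 48 * (centralizer ({t} : Set G)).index :=
        card_eq e ▸ (pow_dvd_pow 2 hk5).trans (hk ▸ Subgroup.card_subgroup_dvd_card _)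
      obtain ⟨m, hm⟩ := index_odd e ht
      omega
    rw [← hPS]
    rintro y ⟨k, -, rfl⟩
    exact jHom_mem e k
  obtain ⟨g, hg⟩ := MulAction.exists_smul_eq G Q P
  have hxP : g * x * g⁻¹ ∈ (P : Subgroup G) := by
    rw [← hg]
    exact Subgroup.smul_mem_pointwise_smul x (MulAut.conj g) _ (hQ (mem_zpowers x))
  obtain ⟨i, hi⟩ := exists_el_of_mem e (hPC hxP)
  have ho : orderOf (jHom e (el i)) = 2 := by
    rw [hi, ← MulAut.conj_apply, MulEquiv.orderOf_eq, hx]
  rw [orderOf_injective _ (jHom_injective e)] at ho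
  have h1 := isConj_of_involution_index e ht hno (i := i)
    (by rw [← pow_two]; exact orderOf_dvd_iff_pow_eq_one.1 (dvd_of_eq ho))
    (fun h => by rw [h, orderOf_one] at ho; omega)
  rw [hi] at h1
  exact h1.trans (isConj_iff.2 ⟨g⁻¹, by group⟩)

include e ht in
/-- A normal subgroup of odd order is trivial. -/
theorem eq_bot_of_odd (hno : ∀ M : Subgroup G, M.Normal → M.index ≠ 2) {A : Subgroup G}
    (hA : A.Normal) (hodd : Odd (Nat.card A)) : A = ⊥ := by
  haveI := hA
  have hC : ∀ a ∈ A, a * t = t * a → a = 1 := by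
    intro a ha hat
    obtain ⟨i, rfl⟩ := exists_el_of_mem e (mem_centralizer_singleton_iff.2 hat)
    have hcube : ∀ c : H, jHom e c ∈ A → c * c * c = 1 := by
      intro c hc
      have h1 : orderOf c ∣ Nat.card A := by
        rw [← orderOf_injective _ (jHom_injective e), ← Subgroup.orderOf_mk _ hc]
        exact orderOf_dvd_natCard _
      have h2 : orderOf c ∣ 48 := natCard_H ▸ orderOf_dvd_natCard c
      have h3 : orderOf c ∣ 3 := by
        have hco : Nat.Coprime 2 (orderOf c) := Nat.prime_two.coprime_iff_not_dvd.2 fun h =>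
          Nat.not_even_iff_odd.2 hodd (even_iff_two_dvd.2 (h.trans h1))
        exact Nat.Coprime.dvd_of_dvd_mul_left (Nat.Coprime.pow_right 4 hco.symm)
          (show orderOf c ∣ 2 ^ 4 * 3 from h2)
      rw [mul_assoc, ← pow_two, ← pow_succ']
      exact orderOf_dvd_iff_pow_eq_one.1 h3
    by_contra hne
    obtain ⟨k, hk⟩ := odd_normal_trivial_aux i (hcube _ ha) fun h => hne (by rw [h, map_one])
    refine hk (hcube _ ?_)
    rw [map_mul, map_mul, map_mul, map_inv]
    exact A.mul_mem (hA.conj_mem _ ha _) ha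
  have hall : ∀ x, IsConj t x → ∀ a ∈ A, a * x = x * a → a = 1 := by
    intro x hx a ha hax
    obtain ⟨g, rfl⟩ := isConj_iff.1 hx
    have h1 := hC (g⁻¹ * a * g) (by simpa using hA.conj_mem a ha g⁻¹) (by
      calc g⁻¹ * a * g * t = g⁻¹ * (a * (g * t * g⁻¹)) * g := by group
        _ = t * (g⁻¹ * a * g) := by rw [hax]; group)
    calc a = g * (g⁻¹ * a * g) * g⁻¹ := by group
      _ = 1 := by rw [h1]; group
  have hinv : ∀ x, IsConj t x → ∀ a ∈ A, x * a * x⁻¹ = a⁻¹ := by
    intro x hx a ha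
    have hxx : x * x = 1 := by
      obtain ⟨g, rfl⟩ := isConj_iff.1 hx
      rw [show g * t * g⁻¹ * (g * t * g⁻¹) = g * (t * t) * g⁻¹ by group, t_mul_self ht]
      group
    have hxi : x⁻¹ = x := inv_eq_of_mul_eq_one_right hxx
    let f : A → A := fun b => ⟨(b : G)⁻¹ * (x * b * x⁻¹),
      A.mul_mem (A.inv_mem b.2) (hA.conj_mem _ b.2 x)⟩
    have hinj : Function.Injective f := by
      intro b c hbc
      have hbc' : (b : G)⁻¹ * (x * b * x⁻¹) = (c : G)⁻¹ * (x * c * x⁻¹) :=
        congrArg Subtype.val hbc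
      have h1 : (c : G) * (b : G)⁻¹ = 1 := by
        refine hall x hx _ (A.mul_mem c.2 (A.inv_mem b.2)) ?_
        have h2 : x * ((c : G) * (b : G)⁻¹) * x⁻¹ = c * (b : G)⁻¹ := by
          calc x * ((c : G) * (b : G)⁻¹) * x⁻¹
              = (c * ((c : G)⁻¹ * (x * c * x⁻¹))) * (((b : G)⁻¹ * (x * b * x⁻¹))⁻¹ * (b : G)⁻¹) :=
                by group
            _ = c * (b : G)⁻¹ := by rw [hbc']; group
        exact ((mul_inv_eq_iff_eq_mul.1 h2).symm)
      exact Subtype.ext (mul_inv_eq_one.1 h1).symm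
    obtain ⟨b, hb⟩ := Finite.surjective_of_injective hinj ⟨a, ha⟩
    have hb' : (b : G)⁻¹ * (x * b * x⁻¹) = a := congrArg Subtype.val hb
    rw [← hb', hxi]
    calc x * ((b : G)⁻¹ * (x * b * x)) * x = x * (b : G)⁻¹ * x * b * (x * x) := by group
      _ = ((b : G)⁻¹ * (x * b * x))⁻¹ := by rw [hxx, mul_inv_rev, mul_inv_rev, mul_inv_rev, hxi]; group
  set s : G := jHom e s0 with hs
  obtain ⟨i, hi⟩ := el_surjective s0
  obtain ⟨i', hi'⟩ := el_surjective (-s0)
  have hcs := isConj_of_involution_index e ht hno (i := i) (hi ▸ s0_facts.1) (hi ▸ s0_facts.2.1)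
  have hcs' := isConj_of_involution_index e ht hno (i := i') (hi' ▸ neg_s0_facts.1)
    (hi' ▸ neg_s0_facts.2.1)
  rw [hi] at hcs
  rw [hi', ← neg_s0_facts.2.2.1, map_mul, jHom_neg_one e ht] at hcs'
  rw [Subgroup.eq_bot_iff_forall]
  intro a ha
  refine hall _ hcs' a ha ?_
  have h1 := hinv s hcs a ha
  have h2 := hinv t (IsConj.refl t) _ (A.inv_mem ha)
  rw [inv_inv] at h2
  refine (mul_inv_eq_iff_eq_mul.1 ?_).symm
  rw [show t * s * a * (t * s)⁻¹ = t * (s * a * s⁻¹) * t⁻¹ by group, h1, h2]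

include e ht in
theorem isSimpleGroup_of_pResidual (hO : Cfsg.pResidual 2 G = ⊤) : IsSimpleGroup G := by
  haveI : Fact (Nat.Prime 2) := ⟨Nat.prime_two⟩
  have hno : ∀ M : Subgroup G, M.Normal → M.index ≠ 2 := by
    intro M hM hMi
    haveI := hM
    have hle : Cfsg.pResidual 2 G ≤ M := by
      refine (Subgroup.closure_le M).2 fun g hg => ?_
      have h1 : orderOf (g : G ⧸ M) ∣ 1 := by
        have := Nat.dvd_gcd (orderOf_map_dvd (QuotientGroup.mk' M) g)
          ((_root_.orderOf_dvd_natCard (G := G ⧸ M) _).trans (dvd_of_eq hMi))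
        rwa [Nat.Coprime.gcd_eq_one hg] at this
      exact (QuotientGroup.eq_one_iff g).1 (orderOf_eq_one_iff.1 (Nat.dvd_one.1 h1))
    rw [hO, top_le_iff] at hle
    rw [hle, Subgroup.index_top] at hMi
    omega
  haveI : Nontrivial G := ⟨⟨t, 1, t_ne_one ht⟩⟩
  refine ⟨fun N hN => ?_⟩
  by_cases hbot : N = ⊥
  · exact Or.inl hbot
  right
  haveI := hN
  have heven : 2 ∣ Nat.card N := by
    by_contra h2
    exact hbot (eq_bot_of_odd e ht hno hN (Nat.odd_iff.2 (by omega)))
  obtain ⟨z, hz⟩ := exists_prime_orderOf_dvd_card' 2 heven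
  rw [← Subgroup.orderOf_coe] at hz
  have hinvol : ∀ x : G, IsConj t x → x ∈ N := by
    intro x hx
    obtain ⟨g, hg⟩ := isConj_iff.1 ((isConj_involution e ht hno hz).symm.trans hx)
    rw [← hg]
    exact hN.conj_mem _ z.2 g
  have hI : ∀ i, el i * el i = 1 → jHom e (el i) ∈ N := by
    intro i h1
    by_cases h2 : el i = 1
    · rw [h2, map_one]; exact N.one_mem
    · exact hinvol _ (isConj_of_involution_index e ht hno h1 h2)
  have hCN : centralizer ({t} : Set G) ≤ N := by
    intro c hc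
    obtain ⟨k, rfl⟩ := exists_el_of_mem e hc
    obtain ⟨a, ha, b, hb, hab⟩ := involution_generation k
    obtain ⟨d, hd⟩ := el_surjective (el k * el a * el b)
    rw [show el k = el d * el b * el a by
      rw [hd, mul_assoc (el k * el a) (el b) (el b), hb, mul_one, mul_assoc, ha, mul_one],
      map_mul, map_mul]
    exact N.mul_mem (N.mul_mem (hI d (by rw [hd]; exact hab)) (hI b hb)) (hI a ha)
  have hSN : sylowG e ≤ N := by
    rintro y ⟨k, -, rfl⟩
    exact hCN (jHom_mem e k)
  obtain ⟨P, hP⟩ := (IsPGroup.of_card (show Nat.card ((sylowG e).subgroupOf N) = 2 ^ 4 by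
    rw [Nat.card_congr (Subgroup.subgroupOfEquivOfLe hSN).toEquiv, card_sylowG]; rfl)).exists_le_sylow
      (p := 2)
  have hPmap : (P : Subgroup N).map N.subtype = sylowG e := by
    symm
    refine Subgroup.eq_of_le_of_card_ge ?_ ?_
    · intro y hy
      exact ⟨⟨y, hSN hy⟩, hP (Subgroup.mem_subgroupOf.2 hy), rfl⟩
    · rw [Nat.card_congr ((P : Subgroup N).equivMapOfInjective _ N.subtype_injective).toEquiv.symm,
        card_sylowG]
      obtain ⟨k, hk⟩ := IsPGroup.iff_card.1 P.2
      rw [hk]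
      by_contra hlt
      have hk5 : 5 ≤ k := by
        by_contra h5
        have h16 : 2 ^ k ≤ 2 ^ 4 := Nat.pow_le_pow_right (by norm_num) (by omega)
        omega
      have h32 : 2 ^ 5 ∣ 48 * (centralizer ({t} : Set G)).index :=
        card_eq e ▸ ((pow_dvd_pow 2 hk5).trans (hk ▸ Subgroup.card_subgroup_dvd_card _)).trans
          (Subgroup.card_subgroup_dvd_card N)
      obtain ⟨m, hm⟩ := index_odd e ht
      omega
  have hfr := Sylow.normalizer_sup_eq_top P
  rw [hPmap] at hfr
  refine top_le_iff.1 (hfr ▸ sup_le ?_ le_rfl)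
  intro g hg
  refine hCN ?_
  rw [Subgroup.mem_normalizer_iff] at hg
  have htS : t ∈ sylowG e := ⟨-1, neg_one_facts.2.2.1, jHom_neg_one e ht⟩
  obtain ⟨c, hc, hce⟩ := (hg t).1 htS
  obtain ⟨i, rfl⟩ := el_surjective c
  have hcen : ∀ k, el k ∈ sylow → el k * el i = el i * el k := by
    intro k hk
    apply jHom_injective e
    rw [map_mul, map_mul, hce]
    have hy : g⁻¹ * jHom e (el k) * g ∈ sylowG e := (hg _).2 (by
      rw [show g * (g⁻¹ * jHom e (el k) * g) * g⁻¹ = jHom e (el k) by group]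
      exact ⟨_, hk, rfl⟩)
    obtain ⟨d, -, hde⟩ := hy
    have hdt : g⁻¹ * jHom e (el k) * g * t = t * (g⁻¹ * jHom e (el k) * g) := by
      rw [← hde]; exact mem_centralizer_singleton_iff.1 (jHom_mem e d)
    calc jHom e (el k) * (g * t * g⁻¹)
        = g * (g⁻¹ * jHom e (el k) * g * t) * g⁻¹ := by group
      _ = g * t * g⁻¹ * jHom e (el k) := by rw [hdt]; group
  rcases center_sylow_eq i hc hcen with h | h
  · rw [h, map_one] at hce
    exact absurd (conj_eq_one_iff.1 hce.symm) (t_ne_one ht)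
  · rw [h, jHom_neg_one e ht] at hce
    exact mem_centralizer_singleton_iff.2 (mul_inv_eq_iff_eq_mul.1 hce.symm)

end Cfsg.Agent.GLTwoThree
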