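import Cfsg.Agent.GLTwoThree.Simple
import Cfsg.Agent.Signalizer.Generation
import Cfsg.Agent.Invol.BrauerFowler

/-!
# The 3-local structure in order `5616`
-/

set_option autoImplicit false
set_option linter.unusedSectionVars false
set_option linter.style.haveILetI false

noncomputable section

namespace Cfsg.Agent.GLTwoThree

open Subgroup

universe u

theorem x3_facts : x3 * x3 * x3 = 1 ∧ x3 ≠ 1 ∧ s0 * x3 * s0⁻¹ = x3⁻¹ ∧
    s0 * (-1) = (-1) * s0 ∧ (-s0) * x3 * (-s0)⁻¹ = x3⁻¹ := by decide +kernel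

theorem order_three_conj : ∀ i, el i * el i * el i = 1 → el i ≠ 1 →
    ∃ k, el k * x3 = el i * el k := by decide +kernel

theorem card_centralizer_x3 :
    (Finset.univ.filter fun i => el i * x3 = x3 * el i).card = 6 := by decide +kernel

theorem order_three_centralizer_s0 : ∀ i, el i * el i * el i = 1 → el i * s0 = s0 * el i →
    el i = 1 := by decide +kernel

variable {G : Type u} [Group G] [Finite G] [IsSimpleGroup G] {t : G}
  (e : centralizer ({t} : Set G) ≃* H) (ht : orderOf t = 2)

/-- The element of order `3`. -/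
def xG : G := jHom e x3

/-- The involution inverting it. -/
def uG : G := jHom e s0

theorem orderOf_xG : orderOf (xG e) = 3 := by
  rw [xG, orderOf_injective _ (jHom_injective e)]
  haveI : Fact (Nat.Prime 3) := ⟨Nat.prime_three⟩
  exact orderOf_eq_prime (by rw [pow_succ, pow_two]; exact x3_facts.1) x3_facts.2.1

theorem orderOf_uG : orderOf (uG e) = 2 := by
  rw [uG, orderOf_injective _ (jHom_injective e)]
  exact orderOf_eq_prime (by rw [pow_two]; exact s0_facts.1) s0_facts.2.1

theorem uG_conj_xG : uG e * xG e * (uG e)⁻¹ = (xG e)⁻¹ := by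
  rw [uG, xG, ← map_inv, ← map_mul, ← map_mul, x3_facts.2.2.1, map_inv]

include ht in
theorem t_comm_uG : t * uG e = uG e * t := by
  calc t * uG e = jHom e (-1) * jHom e s0 := congrArg (· * uG e) (jHom_neg_one e ht).symm
    _ = jHom e s0 * jHom e (-1) := by rw [← map_mul, ← map_mul, x3_facts.2.2.2.1]
    _ = uG e * t := congrArg (uG e * ·) (jHom_neg_one e ht)

include ht in
theorem t_comm_xG : t * xG e = xG e * t :=
  (mem_centralizer_singleton_iff.1 (jHom_mem e x3)).symm

include e ht in
theorem isConj_invol {v : G} (hv : orderOf v = 2) : IsConj t v := by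
  refine isConj_involution e ht (fun M hM hMi => ?_) hv
  rcases hM.eq_bot_or_eq_top with rfl | rfl
  · rw [Subgroup.index_bot, card_eq e] at hMi; omega
  · rw [Subgroup.index_top] at hMi; omega

include ht in
theorem orderOf_tu : orderOf (t * uG e) = 2 := by
  refine orderOf_eq_prime ?_ fun h => ?_
  · rw [pow_two]
    calc t * uG e * (t * uG e) = t * (uG e * t) * uG e := by group
      _ = (t * t) * (uG e * uG e) := by rw [← t_comm_uG e ht]; group
      _ = 1 := by
        rw [t_mul_self ht, one_mul, ← pow_two]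
        exact orderOf_dvd_iff_pow_eq_one.1 (dvd_of_eq (orderOf_uG e))
  · have h1 : uG e = t := by
      rw [← inv_eq_of_mul_eq_one_right h, inv_eq_of_mul_eq_one_right (t_mul_self ht)]
    have h2 := uG_conj_xG e
    rw [h1, t_comm_xG e ht, mul_inv_cancel_right] at h2
    have h3 : orderOf (xG e) ∣ 2 := orderOf_dvd_iff_pow_eq_one.2 (by
      rw [pow_two]; nth_rw 2 [h2]; rw [mul_inv_cancel])
    rw [orderOf_xG] at h3
    norm_num at h3

include e ht in
/-- A `3`-subgroup centralized by an involution has order at most `3`. -/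
theorem card_three_le {v : G} (hv : orderOf v = 2) {S : Subgroup G}
    (hS : S ≤ centralizer ({v} : Set G)) (hp : IsPGroup 3 S) : Nat.card S ≤ 3 := by
  haveI : Fact (Nat.Prime 3) := ⟨Nat.prime_three⟩
  obtain ⟨g, hg⟩ := isConj_iff.1 (isConj_invol e ht hv)
  have hle : S.map (MulAut.conj g⁻¹).toMonoidHom ≤ centralizer ({t} : Set G) := by
    rintro _ ⟨s, hs, rfl⟩
    rw [mem_centralizer_singleton_iff]
    have h := mem_centralizer_singleton_iff.1 (hS hs)
    rw [← hg] at h
    simp only [MulEquiv.coe_toMonoidHom, MulAut.conj_apply, inv_inv]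
    calc g⁻¹ * s * g * t = g⁻¹ * (s * (g * t * g⁻¹)) * g := by group
      _ = t * (g⁻¹ * s * g) := by rw [h]; group
  have h1 : Nat.card S ∣ 48 := by
    rw [Nat.card_congr (S.equivMapOfInjective (MulAut.conj g⁻¹).toMonoidHom
        (MulEquiv.injective (MulAut.conj g⁻¹))).toEquiv, ← natCard_centralizer e]
    exact Subgroup.card_dvd_of_le hle
  obtain ⟨k, hk⟩ := IsPGroup.iff_card.1 hp
  rw [hk] at h1 ⊢
  rcases k with _ | _ | k
  · norm_num
  · norm_num
  · exfalso
    have h2 := (Dvd.intro_left (3 ^ k) (pow_add 3 k 2).symm : 3 ^ 2 ∣ 3 ^ (k + 2)).trans h1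
    norm_num at h2

include ht in
/-- Elements of order `3` commuting with an involution are conjugate to `xG`. -/
theorem isConj_xG {v y : G} (hv : orderOf v = 2) (hy : orderOf y = 3) (hvy : y * v = v * y) :
    IsConj (xG e) y := by
  obtain ⟨g, hg⟩ := isConj_iff.1 (isConj_invol e ht hv)
  obtain ⟨i, hi⟩ := exists_el_of_mem e (show g⁻¹ * y * g ∈ centralizer ({t} : Set G) by
    rw [mem_centralizer_singleton_iff]
    rw [← hg] at hvy
    calc g⁻¹ * y * g * t = g⁻¹ * (y * (g * t * g⁻¹)) * g := by group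
      _ = t * (g⁻¹ * y * g) := by rw [hvy]; group)
  have ho : orderOf (el i) = 3 := by
    rw [← orderOf_injective _ (jHom_injective e), hi,
      show g⁻¹ * y * g = MulAut.conj g⁻¹ y by simp, MulEquiv.orderOf_eq, hy]
  obtain ⟨k, hk⟩ := order_three_conj i
    (by rw [mul_assoc, ← pow_two, ← pow_succ']; exact orderOf_dvd_iff_pow_eq_one.1 (dvd_of_eq ho))
    (fun h => by rw [h, orderOf_one] at ho; omega)
  have h1 : IsConj (xG e) (g⁻¹ * y * g) := by
    rw [← hi]
    exact isConj_iff.2 ⟨jHom e (el k), by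
      rw [xG, ← map_inv, ← map_mul, ← map_mul, hk, mul_inv_cancel_right]⟩
  exact h1.trans (isConj_iff.2 ⟨g, by group⟩)

theorem card_centralizer_of_isConj {a b : G} (h : IsConj a b) :
    Nat.card (centralizer ({b} : Set G)) = Nat.card (centralizer ({a} : Set G)) := by
  obtain ⟨g, rfl⟩ := isConj_iff.1 h
  letI := Fintype.ofFinite G
  have := SmallGroups.Exceptional.card_centralizer_conj (G := G) a g⁻¹
  rwa [inv_inv] at this

include ht in
theorem card_centralizer_t_x :
    Nat.card ↥(centralizer ({t} : Set G) ⊓ centralizer ({xG e} : Set G)) = 6 := by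
  letI := Fintype.ofFinite G
  rw [← card_centralizer_x3, ← Fintype.card_subtype, ← Nat.card_eq_fintype_card]
  refine (Nat.card_congr (Equiv.ofBijective
    (fun i : {i // el i * x3 = x3 * el i} =>
      (⟨jHom e (el i), jHom_mem e _, mem_centralizer_singleton_iff.2 (by
        rw [xG, ← map_mul, ← map_mul, i.2])⟩ :
        ↥(centralizer ({t} : Set G) ⊓ centralizer ({xG e} : Set G))))
    ⟨fun a b h => Subtype.ext (el_injective (jHom_injective e
      (show jHom e (el a.1) = jHom e (el b.1) from congrArg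
        (fun c : ↥(centralizer ({t} : Set G) ⊓ centralizer ({xG e} : Set G)) => (c : G)) h))),
      fun c => ?_⟩)).symm
  obtain ⟨i, hi⟩ := exists_el_of_mem e c.2.1
  refine ⟨⟨i, jHom_injective e ?_⟩, Subtype.ext hi⟩
  rw [map_mul, map_mul, hi]
  exact mem_centralizer_singleton_iff.1 c.2.2

include ht in
theorem not_four_dvd (h4 : 4 ∣ Nat.card (centralizer ({xG e} : Set G))) : False := by
  haveI : Fact (Nat.Prime 2) := ⟨Nat.prime_two⟩
  set C := centralizer ({xG e} : Set G) with hC
  have htC : t ∈ C := mem_centralizer_singleton_iff.2 (t_comm_xG e ht)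
  obtain ⟨P, hP⟩ := (IsPGroup.of_card (show Nat.card (zpowers (⟨t, htC⟩ : C)) = 2 ^ 1 by
    rw [Nat.card_zpowers, Subgroup.orderOf_mk, ht]; rfl)).exists_le_sylow (p := 2)
  have hP4 : 2 ^ 2 ∣ Nat.card P := P.pow_dvd_card_of_pow_dvd_card h4
  haveI : Nontrivial P := Finite.one_lt_card_iff_nontrivial.1
    (lt_of_lt_of_le (by norm_num) (Nat.le_of_dvd Nat.card_pos hP4))
  set tP : P := ⟨⟨t, htC⟩, hP (mem_zpowers _)⟩ with htP
  have hCP : 4 ∣ Nat.card (centralizer ({tP} : Set P)) := by
    obtain ⟨k, hk⟩ := IsPGroup.iff_card.1 (P.2.to_subgroup (centralizer ({tP} : Set P)))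
    rw [hk]
    have hk2 : 2 ≤ k := by
      by_contra hlt
      have hz : zpowers tP = centralizer ({tP} : Set P) := by
        refine Subgroup.eq_of_le_of_card_ge (zpowers_le.2 (mem_centralizer_singleton_iff.2 rfl)) ?_
        refine le_trans (le_of_eq hk) ?_
        rw [Nat.card_zpowers, show orderOf tP = 2 by
          rw [htP, Subgroup.orderOf_mk, Subgroup.orderOf_mk, ht]]
        calc 2 ^ k ≤ 2 ^ 1 := Nat.pow_le_pow_right (by norm_num) (by omega)
          _ = 2 := rfl
      by_cases htz : tP ∈ Subgroup.center P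
      · have htop : centralizer ({tP} : Set P) = ⊤ := top_le_iff.1 fun y _ =>
          mem_centralizer_singleton_iff.2 (Subgroup.mem_center_iff.1 htz y)
        have h1 := Subgroup.card_top (G := P)
        rw [← htop, hk] at h1
        have h2 := Nat.le_of_dvd Nat.card_pos hP4
        rw [← h1] at h2
        have := (Nat.pow_le_pow_iff_right (by norm_num)).1 h2
        omega
      · haveI := P.2.center_nontrivial
        obtain ⟨z, hz1, hzne⟩ := (Subgroup.nontrivial_iff_exists_ne_one _).1
          (inferInstance : Nontrivial (Subgroup.center P))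
        have hmem : z ∈ zpowers tP := hz ▸ mem_centralizer_singleton_iff.2
          (Subgroup.mem_center_iff.1 hz1 tP).symm
        obtain ⟨n, rfl⟩ := Subgroup.mem_zpowers_iff.1 hmem
        have hto : orderOf tP = 2 := by rw [htP, Subgroup.orderOf_mk, Subgroup.orderOf_mk, ht]
        rcases Int.even_or_odd n with ⟨m, rfl⟩ | ⟨m, rfl⟩
        · refine hzne ?_
          rw [← two_mul, zpow_mul, zpow_ofNat,
            orderOf_dvd_iff_pow_eq_one.1 (dvd_of_eq hto), one_zpow]
        · refine htz ?_
          rwa [zpow_add_one, zpow_mul, zpow_ofNat, orderOf_dvd_iff_pow_eq_one.1 (dvd_of_eq hto),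
            one_zpow, one_mul] at hz1
    exact (pow_dvd_pow 2 hk2)
  let f : centralizer ({tP} : Set P) → ↥(centralizer ({t} : Set G) ⊓ C) := fun c =>
    ⟨((c : P) : C), mem_centralizer_singleton_iff.2
      (congrArg (fun y : P => ((y : C) : G)) (mem_centralizer_singleton_iff.1 c.2)),
      ((c : P) : C).2⟩
  have hle := hCP.trans (Subgroup.card_dvd_of_injective
    (({ toFun := f, map_one' := rfl, map_mul' := fun _ _ => rfl } :
      centralizer ({tP} : Set P) →* ↥(centralizer ({t} : Set G) ⊓ C)))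
    (fun a b h => Subtype.ext (Subtype.ext (Subtype.ext (congrArg
      (fun z : ↥(centralizer ({t} : Set G) ⊓ C) => (z : G)) h)))))
  rw [hC, card_centralizer_t_x e ht] at hle
  norm_num at hle

variable (hcard : Nat.card G = 5616)

include hcard in
/-- Elements of order `13` have `3'`-centralizers. -/
theorem not_commute_thirteen {y z : G} (hy : orderOf y = 13) (hz : orderOf z = 3) :
    z * y ≠ y * z := by
  intro hzy
  haveI : Fact (Nat.Prime 13) := ⟨by norm_num⟩
  obtain ⟨Y, hY⟩ := (IsPGroup.of_card (show Nat.card (zpowers y) = 13 ^ 1 by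
    rw [Nat.card_zpowers, hy]; rfl)).exists_le_sylow (p := 13)
  have hYc : Nat.card Y = 13 := by
    obtain ⟨k, hk⟩ := IsPGroup.iff_card.1 Y.2
    have h1 : 13 ^ k ∣ 5616 := hcard ▸ hk ▸ Subgroup.card_subgroup_dvd_card _
    have h2 := Nat.le_of_dvd Nat.card_pos (Subgroup.card_dvd_of_le hY)
    rw [Nat.card_zpowers, hy, hk] at h2
    rw [hk]
    rcases k with _ | _ | k
    · norm_num at h2
    · norm_num
    · have h3 := (Dvd.intro_left (13 ^ k) (pow_add 13 k 2).symm : 13 ^ 2 ∣ 13 ^ (k + 2)).trans h1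
      norm_num at h3
  have hYeq : zpowers y = (Y : Subgroup G) :=
    Subgroup.eq_of_le_of_card_ge hY (by rw [hYc, Nat.card_zpowers, hy])
  have hn : Nat.card (Sylow 13 G) * Nat.card (normalizer ((Y : Subgroup G) : Set G)) = 5616 := by
    rw [Y.card_eq_index_normalizer]
    exact (Subgroup.index_mul_card _).trans hcard
  have hmod : Nat.card (Sylow 13 G) ≡ 1 [MOD 13] := card_sylow_modEq_one 13 G
  have hdvd : Nat.card (Sylow 13 G) ∣ 432 := by
    have h := Y.card_dvd_index
    have h2 := (Y : Subgroup G).card_mul_index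
    rw [hcard, hYc] at h2
    rwa [show (Y : Subgroup G).index = 432 by omega] at h
  have hz3 : 3 ∣ Nat.card (normalizer ((Y : Subgroup G) : Set G)) := by
    rw [← hz, ← Subgroup.orderOf_mk z (show z ∈ normalizer ((Y : Subgroup G) : Set G) from
      Subgroup.centralizer_le_normalizer _ (hYeq ▸ mem_centralizer_iff.2 fun a ha => by
        obtain ⟨n, rfl⟩ := Subgroup.mem_zpowers_iff.1 ha
        exact ((show Commute z y from hzy).zpow_right n).symm.eq))]
    exact orderOf_dvd_natCard _
  have hcases : Nat.card (Sylow 13 G) = 1 ∨ Nat.card (Sylow 13 G) = 144 ∨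
      Nat.card (Sylow 13 G) = 27 := by
    have key : ∀ d ∈ Nat.divisors 432, d % 13 = 1 → d = 1 ∨ d = 144 ∨ d = 27 := by decide +kernel
    exact key _ (Nat.mem_divisors.2 ⟨hdvd, by norm_num⟩) hmod
  rcases hcases with h1 | h1 | h1
  · haveI := (Nat.card_eq_one_iff_unique.1 h1).1
    haveI := Y.normal_of_subsingleton
    rcases (inferInstance : (Y : Subgroup G).Normal).eq_bot_or_eq_top with h | h
    · rw [h, Subgroup.card_bot] at hYc; omega
    · rw [h, Subgroup.card_top, hcard] at hYc; omega
  · have hN : Nat.card (normalizer ((Y : Subgroup G) : Set G)) = 39 := by rw [h1] at hn; omega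
    have hCN : centralizer ((Y : Subgroup G) : Set G) ≤ normalizer ((Y : Subgroup G) : Set G) :=
      Subgroup.centralizer_le_normalizer _
    have hzC : z ∈ centralizer ((Y : Subgroup G) : Set G) :=
      hYeq ▸ mem_centralizer_iff.2 fun a ha => by
        obtain ⟨n, rfl⟩ := Subgroup.mem_zpowers_iff.1 ha
        exact ((show Commute z y from hzy).zpow_right n).symm.eq
    have hyC : y ∈ centralizer ((Y : Subgroup G) : Set G) :=
      hYeq ▸ mem_centralizer_iff.2 fun a ha => by
        obtain ⟨n, rfl⟩ := Subgroup.mem_zpowers_iff.1 ha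
        exact ((Commute.refl y).zpow_right n).symm.eq
    have hd : 39 ∣ Nat.card (centralizer ((Y : Subgroup G) : Set G)) := by
      have e1 : 3 ∣ Nat.card (centralizer ((Y : Subgroup G) : Set G)) := by
        rw [← hz, ← Subgroup.orderOf_mk z hzC]; exact orderOf_dvd_natCard _
      have e2 : 13 ∣ Nat.card (centralizer ((Y : Subgroup G) : Set G)) := by
        have h := orderOf_dvd_natCard (⟨y, hyC⟩ : centralizer ((Y : Subgroup G) : Set G))
        rwa [Subgroup.orderOf_mk, hy] at h
      exact Nat.Coprime.mul_dvd_of_dvd_of_dvd (by norm_num : Nat.Coprime 3 13) e1 e2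
    have heq : centralizer ((Y : Subgroup G) : Set G) = normalizer ((Y : Subgroup G) : Set G) :=
      Subgroup.eq_of_le_of_card_ge hCN (hN ▸ Nat.le_of_dvd Nat.card_pos hd)
    have hc := MonoidHom.ker_transferSylow_isComplement' Y heq.ge
    have hi := hc.symm.index_eq_card
    rw [hYc] at hi
    rcases (MonoidHom.normal_ker (MonoidHom.transferSylow Y heq.ge)).eq_bot_or_eq_top with h | h
    · rw [h, Subgroup.index_bot, hcard] at hi; omega
    · rw [h, Subgroup.index_top] at hi; omega
  · rw [h1] at hn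
    omega

include ht hcard in
/-- The centralizer of `xG` has order `18` or `54` (its odd part is a `3`-group). -/
theorem card_centralizer_xG :
    ∃ k, k ≤ 3 ∧ Nat.card (centralizer ({xG e} : Set G)) = 2 * 3 ^ k := by
  set n := Nat.card (centralizer ({xG e} : Set G)) with hn
  have hd : n ∣ 5616 := hcard ▸ Subgroup.card_subgroup_dvd_card _
  have h2 : 2 ∣ n := by
    rw [← ht, ← Subgroup.orderOf_mk t (mem_centralizer_singleton_iff.2 (t_comm_xG e ht))]
    exact orderOf_dvd_natCard _
  have h4 : ¬ 4 ∣ n := not_four_dvd e ht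
  have h13 : ¬ 13 ∣ n := by
    intro h
    haveI : Fact (Nat.Prime 13) := ⟨by norm_num⟩
    obtain ⟨y, hy⟩ := exists_prime_orderOf_dvd_card' 13 h
    rw [← Subgroup.orderOf_coe] at hy
    exact not_commute_thirteen hcard hy (orderOf_xG e)
      (mem_centralizer_singleton_iff.1 y.2).symm
  obtain ⟨m, hm⟩ := h2
  have hm2 : Nat.Coprime m 8 := by
    rw [show (8 : ℕ) = 2 ^ 3 by norm_num]
    refine Nat.Coprime.pow_right 3 ((Nat.prime_two.coprime_iff_not_dvd.2 fun h => h4 ?_).symm)
    rw [hm, show (4 : ℕ) = 2 * 2 from rfl]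
    exact Nat.mul_dvd_mul_left 2 h
  have hm13 : Nat.Coprime m 13 := ((Nat.Prime.coprime_iff_not_dvd (by norm_num)).2 fun h =>
    h13 (hm ▸ dvd_mul_of_dvd_right h 2)).symm
  have hm27 : m ∣ 27 := by
    have h1 : m ∣ 8 * (13 * (2 * 27)) :=
      (show m ∣ n from hm ▸ dvd_mul_left m 2).trans (hd.trans (by norm_num))
    have h3 := hm13.dvd_of_dvd_mul_left (hm2.dvd_of_dvd_mul_left h1)
    exact (Nat.Coprime.coprime_dvd_right (by norm_num : 2 ∣ 8) hm2).dvd_of_dvd_mul_left h3
  obtain ⟨k, hk, rfl⟩ := (Nat.dvd_prime_pow Nat.prime_three).1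
    (show m ∣ 3 ^ 3 by norm_num; exact hm27)
  exact ⟨k, hk, hm⟩

end Cfsg.Agent.GLTwoThree
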